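import Cfsg.Agent.OffThm.Factor
import Cfsg.Agent.CF.QdFusion
import Cfsg.Agent.CF.SectionTools
import Cfsg.Agent.LocalP.QdStable
import Cfsg.Agent.Modules.Thompson

/-!
The centre and the elementary Thompson subgroup as functors; together they control fusion in every
section of a group without section `S₄`.
-/

set_option autoImplicit false
set_option linter.unusedSectionVars false
set_option linter.style.haveILetI false

namespace Cfsg.Agent.OffThm

open Cfsg.Agent.CF (Fam FusIn Nz IsSec)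

universe u

/-- The centre as a functor on groups. -/
def zFun : ∀ (Q : Type u) [Group Q], Subgroup Q := fun Q _ => Subgroup.center Q

/-- The elementary Thompson subgroup (for the prime 2) as a functor on groups. -/
def jeFun : ∀ (Q : Type u) [Group Q], Subgroup Q := fun Q _ =>
  Cfsg.thompsonSubgroupOf 2 (⊤ : Subgroup Q)

theorem induced_zFun {G : Type u} [Group G] (P : Subgroup G) :
    Cfsg.inducedFunctor zFun P = P ⊓ Subgroup.centralizer (P : Set G) := by
  ext x
  constructor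
  · rintro ⟨z, hz, rfl⟩
    exact ⟨z.2, Subgroup.mem_centralizer_iff.2 fun y hy =>
      congrArg Subtype.val (Subgroup.mem_center_iff.1 hz ⟨y, hy⟩)⟩
  · rintro ⟨hxP, hxC⟩
    exact ⟨⟨x, hxP⟩, Subgroup.mem_center_iff.2 fun y =>
      Subtype.ext (Subgroup.mem_centralizer_iff.1 hxC y y.2), rfl⟩

theorem induced_jeFun {G : Type u} [Group G] (P : Subgroup G) :
    Cfsg.inducedFunctor jeFun P = Cfsg.thompsonSubgroupOf 2 P := by
  rw [Cfsg.inducedFunctor, jeFun, Modules.map_thompsonSubgroupOf P.subtype_injective,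
    ← MonoidHom.range_eq_map, Subgroup.range_subtype]

theorem zFun_charP {p : ℕ} [Fact p.Prime] : Cfsg.IsCharPFunctor.{u} p zFun := by
  refine ⟨fun Q _ _ hQ hne => ?_, fun Q R _ _ _ _ φ => ?_⟩
  · haveI := hne
    exact (Subgroup.nontrivial_iff_ne_bot _).1 hQ.center_nontrivial
  · ext x
    constructor
    · rintro ⟨z, hz, rfl⟩
      refine Subgroup.mem_center_iff.2 fun y => ?_
      obtain ⟨y', rfl⟩ := φ.surjective y
      show φ y' * φ z = φ z * φ y'
      rw [← map_mul, ← map_mul, Subgroup.mem_center_iff.1 hz y']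
    · intro hx
      refine ⟨φ.symm x, Subgroup.mem_center_iff.2 fun y => φ.injective ?_, φ.apply_symm_apply x⟩
      rw [map_mul, map_mul, φ.apply_symm_apply]
      exact Subgroup.mem_center_iff.1 hx (φ y)

theorem jeFun_charP : Cfsg.IsCharPFunctor.{u} 2 jeFun := by
  haveI : Fact (Nat.Prime 2) := ⟨Nat.prime_two⟩
  refine ⟨fun Q _ _ hQ hne => ?_, fun Q R _ _ _ _ φ => ?_⟩
  · haveI := hne
    refine Modules.thompsonSubgroupOf_ne_bot ?_
    rw [Subgroup.card_top]
    exact hQ.card_eq_or_dvd.resolve_left (Finite.one_lt_card (α := Q)).ne'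
  · show (Cfsg.thompsonSubgroupOf 2 _).map _ = _
    rw [Modules.map_thompsonSubgroupOf φ.injective, Subgroup.map_top_of_surjective _ φ.surjective]
    rfl

theorem pair_charP : ∀ W ∈ ({zFun, jeFun} : Set (∀ (Q : Type u) [Group Q], Subgroup Q)),
    Cfsg.IsCharPFunctor.{u} 2 W := by
  haveI : Fact (Nat.Prime 2) := ⟨Nat.prime_two⟩
  rintro W (rfl | rfl)
  exacts [zFun_charP, jeFun_charP]

theorem fam_pair (X : Type u) [Group X] :
    Fam ({zFun, jeFun} : Set (∀ (Q : Type u) [Group Q], Subgroup Q)) X =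
      {fun P : Subgroup X => P ⊓ Subgroup.centralizer (P : Set X),
        fun P : Subgroup X => Cfsg.thompsonSubgroupOf 2 P} := by
  rw [Fam, Set.image_pair]
  congr 1
  · exact funext induced_zFun
  · congr 1
    exact funext induced_jeFun

variable {G : Type u} [Group G] [Finite G]

theorem involves_of_isSec {H : Type} [Group H] {X : Type u} [Group X] (hX : IsSec X G)
    (h : Cfsg.Involves H X) : Cfsg.Involves H G := by
  obtain ⟨K₁, R₁, hR₁, ⟨e⟩⟩ := h
  obtain ⟨K₀, R₀, hR₀, ⟨e₀⟩⟩ := hX.exists_equiv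
  obtain ⟨K₂, R₂, hR₂, ⟨e₂⟩⟩ := Stability.section_comap e₀.toMonoidHom e₀.surjective hR₁ e
  exact LocalP.QdStab.section_trans hR₂ e₂

/-- Without section `S₄`, the pair `Z`, `J` controls fusion in every section. -/
theorem fusIn_pair [Fact (Nat.Prime 2)] (hS4 : ¬ Cfsg.Involves (Equiv.Perm (Fin 4)) G)
    (X : Type u) [Group X] [Finite X] (hX : IsSec X G) (S : Sylow 2 X) :
    FusIn (Fam ({zFun, jeFun} : Set (∀ (Q : Type u) [Group Q], Subgroup Q)) X) ⊤
      (S : Subgroup X) := by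
  refine CF.fusIn_of_sections pair_charP ?_ X hX S
  intro Y _ _ hY hC T
  refine CF.fusIn_of_mul (W₁ := Cfsg.inducedFunctor zFun) (W₂ := Cfsg.inducedFunctor jeFun)
    (CF.fam_conjFunctor pair_charP) T ⟨zFun, Or.inl rfl, rfl⟩ ⟨jeFun, Or.inr rfl, rfl⟩ fun y => ?_
  rw [induced_zFun, induced_jeFun]
  exact exists_mul_mem_normalizers hC (fun h => hS4 (involves_of_isSec hY h)) T y

theorem familyControls_section [Fact (Nat.Prime 2)]
    (hS4 : ¬ Cfsg.Involves (Equiv.Perm (Fin 4)) G) (K R : Subgroup G) [(R.subgroupOf K).Normal] :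
    Cfsg.FamilyControlsStrongFusionIn 2
      (Fam ({zFun, jeFun} : Set (∀ (Q : Type u) [Group Q], Subgroup Q)) (↥K ⧸ R.subgroupOf K)) ⊤ := by
  obtain ⟨S⟩ : Nonempty (Sylow 2 (↥K ⧸ R.subgroupOf K)) := inferInstance
  exact CF.familyFusion_of_fusIn (CF.isSyl_sylow S)
    (fusIn_pair hS4 _ (IsSec.of_section K R) S)

/-- If a family of functors controls fusion in every section, `Qd(p)` is not involved. -/
theorem not_involves_qd_of_control {p : ℕ} [Fact p.Prime]
    {𝓦 : Set (∀ (Q : Type u) [Group Q], Subgroup Q)}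
    (h𝓦 : ∀ W ∈ 𝓦, Cfsg.IsCharPFunctor.{u} p W)
    (h : ∀ (K R : Subgroup G) [(R.subgroupOf K).Normal],
      Cfsg.FamilyControlsStrongFusionIn p (Fam 𝓦 (↥K ⧸ R.subgroupOf K)) ⊤) :
    ¬ Cfsg.Involves ↥(Cfsg.qd p) G := by
  rintro ⟨K, R, hR, ⟨e⟩⟩
  obtain ⟨S, hS⟩ := CF.not_fusIn_qd h𝓦 (show (↥K ⧸ R.subgroupOf K) ≃* ↥(Cfsg.qdOver (ZMod p)) from e)
  exact hS (CF.fusIn_of_familyFusion (CF.fam_conjFunctor h𝓦) (CF.isSyl_sylow S) (h K R))

end Cfsg.Agent.OffThm
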