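import Cfsg.Agent.FusionAux.NoOffender

/-!
Subgroups `Y` of a module on which a 2-subgroup has no over-offender (`Good`): the property passes to
sums, conjugates, and to and from the groups induced on invariant subgroups.
-/

set_option autoImplicit false
set_option linter.unusedSectionVars false
set_option linter.unusedVariables false
set_option linter.style.haveILetI false

namespace Cfsg.Agent.OffThm

open Subgroup
open Cfsg.Agent.Fusion (cj mem_cj conj_mem_cj cj_cj cj_inv_cj card_cj)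
open Cfsg.Agent.CF (fixSub apply_mul)
open Cfsg.Agent.FusionAux.NoOffender

universe u

variable {G : Type u} [Group G] {M : Type u} [CommGroup M]

/-- The elements fixing every element of `Y`. -/
def fixer (φ : G →* MulAut M) (Y : Subgroup M) : Subgroup G where
  carrier := {g | ∀ y ∈ Y, φ g y = y}
  one_mem' y _ := by rw [map_one]; rfl
  mul_mem' hx hy y hY := by rw [apply_mul, hy y hY, hx y hY]
  inv_mem' {x} hx y hY := by
    calc φ x⁻¹ y = φ x⁻¹ (φ x y) := by rw [hx y hY]
      _ = y := by rw [← apply_mul, inv_mul_cancel, map_one]; rfl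

variable {φ : G →* MulAut M}

theorem mem_fixer {Y : Subgroup M} {g : G} : g ∈ fixer φ Y ↔ ∀ y ∈ Y, φ g y = y := Iff.rfl

theorem le_fixer_iff {Y : Subgroup M} {A : Subgroup G} : A ≤ fixer φ Y ↔ Y ≤ fixSub φ A :=
  ⟨fun h y hy a ha => h ha y hy, fun h a ha y hy => h hy a ha⟩

theorem fixer_anti (φ : G →* MulAut M) {Y Z : Subgroup M} (h : Y ≤ Z) :
    fixer φ Z ≤ fixer φ Y := fun _ hg y hy => hg y (h hy)

theorem fixer_top_eq_bot (hinj : Function.Injective φ) : fixer φ (⊤ : Subgroup M) = ⊥ :=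
  eq_bot_iff.2 fun g hg => Subgroup.mem_bot.2 (hinj (MulEquiv.ext fun m => by
    rw [map_one]; exact hg m (mem_top m)))

theorem fixer_map (φ : G →* MulAut M) (g : G) (Y : Subgroup M) :
    fixer φ (Y.map (φ g).toMonoidHom) = cj g (fixer φ Y) := by
  ext x
  rw [mem_cj]
  constructor
  · intro h y hy
    have h' : φ x (φ g y) = φ g y := h _ ⟨y, hy, rfl⟩
    rw [apply_mul, apply_mul, h', ← apply_mul, inv_mul_cancel, map_one]
    rfl
  · rintro h _ ⟨y, hy, rfl⟩
    show φ x (φ g y) = φ g y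
    conv_rhs => rw [← h y hy]
    rw [← apply_mul, ← apply_mul]
    congr 2
    group

/-- `A`, inside `S`, never over-offends on `Y`. -/
def Good (φ : G →* MulAut M) (S : Subgroup G) (Y : Subgroup M) : Prop :=
  ∀ A ≤ S, (∀ a ∈ A, a * a ∈ fixer φ Y) → ¬ A ≤ fixer φ Y →
    Nat.card A * Nat.card (Y ⊓ fixSub φ A : Subgroup M) <
      Nat.card (A ⊓ fixer φ Y : Subgroup G) * Nat.card Y

theorem Good.mono {S S' : Subgroup G} {Y : Subgroup M} (h : Good φ S Y) (hle : S' ≤ S) :
    Good φ S' Y := fun A hA => h A (hA.trans hle)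

theorem good_of_le_fixer {S : Subgroup G} {Y : Subgroup M} (h : S ≤ fixer φ Y) : Good φ S Y :=
  fun _ hA _ hm => absurd (hA.trans h) hm

theorem Good.map {S : Subgroup G} {Y : Subgroup M} (h : Good φ S Y) (g : G) :
    Good φ (cj g S) (Y.map (φ g).toMonoidHom) := by
  intro A hA hsq hm
  set A₀ := cj g⁻¹ A with hA₀
  have hA' : cj g A₀ = A := by rw [hA₀, cj_cj, mul_inv_cancel, Fusion.cj_one]
  have hA₀S : A₀ ≤ S := by
    have := Fusion.cj_mono g⁻¹ hA
    rwa [cj_inv_cj] at this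
  have hfix : ∀ a ∈ A₀, g * a * g⁻¹ ∈ A := fun a ha => hA'.le (conj_mem_cj.2 ha)
  have hlt := h A₀ hA₀S (fun a ha => ?_) fun hle => hm ?_
  · have e2 : A ⊓ fixer φ (Y.map (φ g).toMonoidHom) = cj g (A₀ ⊓ fixer φ Y) := by
      rw [fixer_map, cj, cj, Subgroup.map_inf _ _ _ (MulAut.conj g).injective]
      rw [← hA']
    have e3 : Y.map (φ g).toMonoidHom ⊓ fixSub φ A = (Y ⊓ fixSub φ A₀).map (φ g).toMonoidHom := by
      conv_lhs => rw [← hA', fixSub_cj]
      exact (Subgroup.map_inf _ _ _ (φ g).injective).symm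
    rw [e2, e3, card_cj, card_map_of_injective (f := (φ g).toMonoidHom) (φ g).injective,
      card_map_of_injective (f := (φ g).toMonoidHom) (φ g).injective, ← hA', card_cj]
    exact hlt
  · have h1 := hsq _ (hfix a ha)
    rw [fixer_map, show g * a * g⁻¹ * (g * a * g⁻¹) = g * (a * a) * g⁻¹ by group] at h1
    exact conj_mem_cj.1 h1
  · rw [← hA', fixer_map]
    exact Fusion.cj_mono g hle

variable [Finite G] [Finite M]

theorem card_sup_mul_card_inf (N U : Subgroup M) :
    Nat.card (N ⊔ U : Subgroup M) * Nat.card (N ⊓ U : Subgroup M) =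
      Nat.card N * Nat.card U := by
  have e1 := relIndex_mul_relIndex ⊥ U (N ⊔ U) bot_le le_sup_right
  have e2 := relIndex_mul_relIndex ⊥ (N ⊓ U) N bot_le inf_le_left
  rw [relIndex_bot_left, relIndex_bot_left, relIndex_sup_right] at e1
  rw [relIndex_bot_left, relIndex_bot_left, inf_relIndex_left] at e2
  rw [← e1, ← e2]; ring

theorem Good.iSup {ι : Sort*} {E : ι → Subgroup M} {S : Subgroup G} {V : Subgroup M}
    (hV : V = ⨆ i, E i) (h : ∀ i, Good φ S (E i)) : Good φ S V := by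
  intro A hA hsq hm
  induction hn : Nat.card A using Nat.strong_induction_on generalizing A with
  | _ n ih =>
    subst hn
    obtain ⟨i, hi⟩ : ∃ i, ¬ A ≤ fixer φ (E i) := by
      by_contra hcon
      push Not at hcon
      exact hm (le_fixer_iff.2 (hV ▸ iSup_le fun i => le_fixer_iff.1 (hcon i)))
    have hEV : E i ≤ V := hV ▸ le_iSup E i
    set A₁ := A ⊓ fixer φ (E i) with hA₁
    have h1 := h i A hA (fun a ha => fixer_anti φ hEV (hsq a ha)) hi
    set F := fixSub φ A
    have hpiece : Nat.card (E i) * Nat.card (V ⊓ F : Subgroup M) ≤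
        Nat.card (V ⊓ fixSub φ A₁ : Subgroup M) * Nat.card (E i ⊓ F : Subgroup M) := by
      rw [← card_sup_mul_card_inf]
      refine Nat.mul_le_mul (card_le_of_le (sup_le ?_ ?_)) (card_le_of_le ?_)
      · exact le_inf hEV (le_fixer_iff.1 inf_le_right)
      · exact le_inf inf_le_left (inf_le_right.trans (fixSub_anti φ inf_le_left))
      · exact inf_le_inf_left _ inf_le_right
    have hA₁V : A₁ ⊓ fixer φ V = A ⊓ fixer φ V := by
      rw [hA₁, inf_assoc, inf_eq_right.2 (fixer_anti φ hEV)]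
    have step : Nat.card A * Nat.card (V ⊓ F : Subgroup M) <
        Nat.card A₁ * Nat.card (V ⊓ fixSub φ A₁ : Subgroup M) := by
      refine Nat.lt_of_mul_lt_mul_right (a := Nat.card (E i ⊓ F : Subgroup M)) ?_
      calc Nat.card A * Nat.card (V ⊓ F : Subgroup M) * Nat.card (E i ⊓ F : Subgroup M)
          = Nat.card A * Nat.card (E i ⊓ F : Subgroup M) * Nat.card (V ⊓ F : Subgroup M) := by ring
        _ < Nat.card A₁ * Nat.card (E i) * Nat.card (V ⊓ F : Subgroup M) :=
            Nat.mul_lt_mul_of_pos_right h1 Nat.card_pos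
        _ ≤ _ := by rw [mul_assoc, mul_assoc]; exact Nat.mul_le_mul_left _ hpiece
    refine step.trans_le ?_
    by_cases hA₁' : A₁ ≤ fixer φ V
    · rw [inf_eq_left.2 hA₁'] at hA₁V
      rw [← hA₁V]
      exact Nat.mul_le_mul_left _ (card_le_of_le inf_le_left)
    · have hlt : Nat.card A₁ < Nat.card A := card_lt_of_lt
        (lt_of_le_of_ne inf_le_left fun e => hi (e.ge.trans inf_le_right))
      have h2 := ih _ hlt A₁ (inf_le_left.trans hA) (fun a ha => hsq a ha.1) hA₁' rfl
      rw [hA₁V] at h2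
      exact h2.le

theorem card_map_mul_card_inf_ker {X : Type u} [Group X] {H : Type u} [Group H] [Finite H]
    (π : H →* X) (B : Subgroup H) :
    Nat.card (B.map π) * Nat.card (B ⊓ π.ker : Subgroup H) = Nat.card B := by
  rw [← B.range_subtype, MonoidHom.map_range, B.range_subtype]
  set f := π.comp B.subtype
  have hker : f.ker = (B ⊓ π.ker).subgroupOf B := by
    ext x
    simp [f, Subgroup.mem_subgroupOf]
  rw [← Subgroup.index_ker f, hker,
    ← Nat.card_congr (Subgroup.subgroupOfEquivOfLe (inf_le_left : B ⊓ π.ker ≤ B)).toEquiv,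
    mul_comm, Subgroup.card_mul_index]

/-- The group induced on an invariant subgroup `W`, seen through `π`. -/
structure Induced (φ : G →* MulAut M) {X : Type u} [Group X] (H : Subgroup G) (W : Subgroup M)
    (π : H →* X) (ψ : X →* MulAut W) : Prop where
  surj : Function.Surjective π
  comp : ∀ (h : H) (w : W), ((ψ (π h) w : W) : M) = φ (h : G) (w : M)
  ker : ∀ h : H, π h = 1 → (h : G) ∈ fixer φ W

namespace Induced

variable {X : Type u} [Group X] {H : Subgroup G} {W : Subgroup M} {π : H →* X} {ψ : X →* MulAut W}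

theorem mem_fixer_iff (I : Induced φ H W π ψ) {Z : Subgroup M} (hZW : Z ≤ W) (h : H) :
    π h ∈ fixer ψ (Z.subgroupOf W) ↔ (h : G) ∈ fixer φ Z := by
  constructor
  · intro hh z hz
    rw [← I.comp h ⟨z, hZW hz⟩, hh ⟨z, hZW hz⟩ (mem_subgroupOf.2 hz)]
  · intro hh w hw
    exact Subtype.ext ((I.comp h w).trans (hh _ (mem_subgroupOf.1 hw)))

theorem card_inf_fixSub (I : Induced φ H W π ψ) {Z : Subgroup M} (hZW : Z ≤ W) (B : Subgroup H) :
    Nat.card (Z.subgroupOf W ⊓ fixSub ψ (B.map π) : Subgroup W) =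
      Nat.card (Z ⊓ fixSub φ (B.map H.subtype) : Subgroup M) := by
  rw [← card_map_of_injective W.subtype_injective]
  congr 1
  refine congrArg (fun S : Subgroup M => ↥S) ?_
  ext m
  constructor
  · rintro ⟨w, ⟨hw, hfix⟩, rfl⟩
    refine ⟨mem_subgroupOf.1 hw, ?_⟩
    rintro _ ⟨b, hb, rfl⟩
    exact (I.comp b w).symm.trans (congrArg Subtype.val (hfix _ ⟨b, hb, rfl⟩))
  · rintro ⟨hmZ, hm⟩
    refine ⟨⟨m, hZW hmZ⟩, ⟨mem_subgroupOf.2 hmZ, ?_⟩, rfl⟩
    rintro _ ⟨b, hb, rfl⟩
    exact Subtype.ext ((I.comp b _).trans (hm _ ⟨b, hb, rfl⟩))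

/-- The counts for a subgroup `B` of `H` and for its image. -/
theorem counts (I : Induced φ H W π ψ) {Z : Subgroup M} (hZW : Z ≤ W) (B : Subgroup H) :
    Nat.card (B.map π) * Nat.card (B ⊓ π.ker : Subgroup H) = Nat.card (B.map H.subtype) ∧
      Nat.card (B.map π ⊓ fixer ψ (Z.subgroupOf W) : Subgroup X) *
        Nat.card (B ⊓ π.ker : Subgroup H) =
        Nat.card (B.map H.subtype ⊓ fixer φ Z : Subgroup G) := by
  refine ⟨by rw [card_map_mul_card_inf_ker, card_map_of_injective H.subtype_injective], ?_⟩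
  set B' := B ⊓ (fixer φ Z).comap H.subtype with hB'
  have e1 : B.map π ⊓ fixer ψ (Z.subgroupOf W) = B'.map π := by
    ext x
    constructor
    · rintro ⟨⟨b, hb, rfl⟩, hx⟩
      exact ⟨b, ⟨hb, (I.mem_fixer_iff hZW b).1 hx⟩, rfl⟩
    · rintro ⟨b, hb, rfl⟩
      exact ⟨⟨b, hb.1, rfl⟩, (I.mem_fixer_iff hZW b).2 hb.2⟩
  have e2 : B.map H.subtype ⊓ fixer φ Z = B'.map H.subtype := by
    ext x
    constructor
    · rintro ⟨⟨b, hb, rfl⟩, hx⟩
      exact ⟨b, ⟨hb, hx⟩, rfl⟩
    · rintro ⟨b, hb, rfl⟩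
      exact ⟨⟨b, hb.1, rfl⟩, hb.2⟩
  have e3 : B ⊓ π.ker = B' ⊓ π.ker := by
    refine le_antisymm (fun b hb => ⟨⟨hb.1, ?_⟩, hb.2⟩) (inf_le_inf_right _ inf_le_left)
    exact fixer_anti φ hZW (I.ker b hb.2)
  rw [e1, e2, e3, card_map_mul_card_inf_ker, card_map_of_injective H.subtype_injective]

/-- `Good` passes to the induced group. -/
theorem good (I : Induced φ H W π ψ) {Z : Subgroup M} (hZW : Z ≤ W) {T : Subgroup H}
    (h : Good φ (T.map H.subtype) Z) : Good ψ (T.map π) (Z.subgroupOf W) := by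
  intro A hA hsq hm
  set B := T ⊓ A.comap π with hB
  have hBA : B.map π = A := by
    refine le_antisymm ((map_mono inf_le_right).trans (map_comap_le _ _)) fun a ha => ?_
    obtain ⟨t, ht, rfl⟩ := hA ha
    exact ⟨t, ⟨ht, ha⟩, rfl⟩
  have h1 := h (B.map H.subtype) (map_mono inf_le_left) ?_ fun hle => hm ?_
  · obtain ⟨e1, e2⟩ := I.counts hZW B
    rw [hBA] at e1 e2
    rw [← e1, ← e2, ← I.card_inf_fixSub hZW, hBA] at h1
    have e3 : Nat.card (Z.subgroupOf W) = Nat.card Z :=
      Nat.card_congr (subgroupOfEquivOfLe hZW).toEquiv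
    rw [e3]
    refine Nat.lt_of_mul_lt_mul_right (a := Nat.card (B ⊓ π.ker : Subgroup H)) ?_
    calc _ = _ := by ring
      _ < _ := h1
      _ = _ := by ring
  · rintro _ ⟨b, hb, rfl⟩
    have := hsq _ (hBA.le ⟨b, hb, rfl⟩)
    rw [← map_mul] at this
    exact (I.mem_fixer_iff hZW (b * b)).1 this
  · rw [← hBA]
    rintro _ ⟨b, hb, rfl⟩
    exact (I.mem_fixer_iff hZW b).2 (hle ⟨b, hb, rfl⟩)

/-- `Good` lifts from the induced group. -/
theorem good_lift (I : Induced φ H W π ψ) {Z : Subgroup M} (hZW : Z ≤ W) {S : Subgroup G}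
    (hSH : S ≤ H) (h : Good ψ ((S.subgroupOf H).map π) (Z.subgroupOf W)) : Good φ S Z := by
  intro A hA hsq hm
  set B := A.subgroupOf H with hB
  have hBA : B.map H.subtype = A := map_subgroupOf_eq_of_le (hA.trans hSH)
  have h1 := h (B.map π) (map_mono fun b hb => hA hb) ?_ fun hle => hm ?_
  · obtain ⟨e1, e2⟩ := I.counts hZW B
    rw [I.card_inf_fixSub hZW, hBA] at h1
    rw [hBA] at e1 e2
    have e3 : Nat.card (Z.subgroupOf W) = Nat.card Z :=
      Nat.card_congr (subgroupOfEquivOfLe hZW).toEquiv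
    rw [e3] at h1
    rw [← e1, ← e2]
    calc _ = Nat.card (B.map π) * Nat.card (Z ⊓ fixSub φ A : Subgroup M) *
          Nat.card (B ⊓ π.ker : Subgroup H) := by ring
      _ < _ := Nat.mul_lt_mul_of_pos_right h1 Nat.card_pos
      _ = _ := by ring
  · rintro _ ⟨b, hb, rfl⟩
    rw [← map_mul]
    exact (I.mem_fixer_iff hZW (b * b)).2 (hsq _ hb)
  · rw [← hBA]
    rintro _ ⟨b, hb, rfl⟩
    exact (I.mem_fixer_iff hZW b).1 (hle ⟨b, hb, rfl⟩)

end Induced

theorem good_top_of_not_isOff (hinj : Function.Injective φ) {S : Subgroup G}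
    (h : ∀ A ≤ S, ¬ IsOff φ A) : Good φ S (⊤ : Subgroup M) := by
  intro A hA hsq hm
  rw [fixer_top_eq_bot hinj] at hsq hm ⊢
  rw [inf_bot_eq, Subgroup.card_bot, one_mul, Subgroup.card_top, top_inf_eq]
  by_contra hle
  exact h A hA ⟨fun e => hm (e.le), fun a ha => mem_bot.1 (hsq a ha), not_lt.1 hle⟩

theorem not_isOff_of_good (hinj : Function.Injective φ) {S : Subgroup G}
    (h : Good φ S (⊤ : Subgroup M)) {A : Subgroup G} (hA : A ≤ S) : ¬ IsOff φ A := by
  intro hoff
  have h1 := h A hA (fun a ha => by rw [hoff.2.1 a ha]; exact one_mem _) fun hle =>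
    hoff.1 (eq_bot_iff.2 (hle.trans (fixer_top_eq_bot hinj).le))
  rw [fixer_top_eq_bot hinj, inf_bot_eq, Subgroup.card_bot, one_mul, Subgroup.card_top,
    top_inf_eq] at h1
  exact hoff.2.2.not_gt h1

/-- A minimal offender fixes every good subgroup. -/
theorem minOff_le_fixer {A : Subgroup G} (hA : IsMinOff φ A) {Y : Subgroup M}
    (h : Good φ A Y) : A ≤ fixer φ Y := by
  by_contra hm
  have h1 := h A le_rfl (fun a ha => by rw [hA.1.2.1 a ha]; exact one_mem _) hm
  have h2 := hA.card_le_restrict Y (C := A ⊓ fixer φ Y) inf_le_left (le_fixer_iff.1 inf_le_right)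
  exact h2.not_gt h1

end Cfsg.Agent.OffThm
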