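import Mathlib.RepresentationTheory.Basic
import Mathlib.LinearAlgebra.Dual.Lemmas
import Mathlib.RingTheory.Length
import Mathlib.Algebra.Field.ZMod
import Mathlib.FieldTheory.Finiteness

/-!
An invariant pairing `R × M → C` of `F₂`-representations, with trivial action on `C`, in which every
nonzero subspace `L` of `R` sees more than `dim L` dimensions of `M`, becomes injective after tensoring
with a large matrix space. Counting composition factors of the cokernel gives a simple section `N` of
powers of the dual of `M` with `|N| |R| ≤ |M|`.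
-/

set_option autoImplicit false
set_option linter.unusedSectionVars false
set_option linter.style.haveILetI false

namespace Cfsg.Agent.OffThm

open Module

universe u

/-- The annihilator in `M` of a subspace of `R`. -/
def pairAnn {R M C : Type u} [AddCommGroup R] [AddCommGroup M] [AddCommGroup C] [Module (ZMod 2) R]
    [Module (ZMod 2) M] [Module (ZMod 2) C] (β : R →ₗ[ZMod 2] M →ₗ[ZMod 2] C)
    (L : Submodule (ZMod 2) R) : Submodule (ZMod 2) M :=
  ⨅ r ∈ L, LinearMap.ker (β r)

theorem mem_pairAnn {R M C : Type u} [AddCommGroup R] [AddCommGroup M] [AddCommGroup C]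
    [Module (ZMod 2) R] [Module (ZMod 2) M] [Module (ZMod 2) C]
    {β : R →ₗ[ZMod 2] M →ₗ[ZMod 2] C} {L : Submodule (ZMod 2) R} {m : M} :
    m ∈ pairAnn β L ↔ ∀ r ∈ L, β r m = 0 := by
  simp [pairAnn]

section Blow

variable {R M C : Type u} [AddCommGroup R] [AddCommGroup M] [AddCommGroup C]
  [Module (ZMod 2) R] [Module (ZMod 2) M] [Module (ZMod 2) C]

/-- The blown-up pairing attached to a matrix of functionals. -/
noncomputable def blow (β : R →ₗ[ZMod 2] M →ₗ[ZMod 2] C) {d : ℕ}
    (c : Fin d → Fin d → Dual (ZMod 2) C) :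
    (Fin d → R) →ₗ[ZMod 2] (Fin d → Dual (ZMod 2) M) :=
  LinearMap.pi fun i => ∑ j, (β.compr₂ (c i j)).comp (LinearMap.proj j)

theorem blow_apply (β : R →ₗ[ZMod 2] M →ₗ[ZMod 2] C) {d : ℕ}
    (c : Fin d → Fin d → Dual (ZMod 2) C) (r : Fin d → R) (i : Fin d) (m : M) :
    blow β c r i m = ∑ j, c i j (β (r j) m) := by
  simp [blow]

/-- The same, as a map in one row of the matrix. -/
noncomputable def rowMap (β : R →ₗ[ZMod 2] M →ₗ[ZMod 2] C) {d : ℕ} (r : Fin d → R) :
    (Fin d → Dual (ZMod 2) C) →ₗ[ZMod 2] Dual (ZMod 2) M :=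
  ∑ j, (LinearMap.lcomp (ZMod 2) (ZMod 2) (β (r j))).comp (LinearMap.proj j)

theorem rowMap_apply (β : R →ₗ[ZMod 2] M →ₗ[ZMod 2] C) {d : ℕ} (r : Fin d → R)
    (f : Fin d → Dual (ZMod 2) C) (m : M) : rowMap β r f m = ∑ j, f j (β (r j) m) := by
  simp [rowMap]

variable [Finite R] [Finite M] [Finite C]

theorem card_eq_two_pow (V : Type*) [AddCommGroup V] [Module (ZMod 2) V] [Finite V] :
    Nat.card V = 2 ^ finrank (ZMod 2) V := by
  rw [Module.natCard_eq_pow_finrank (K := ZMod 2), Nat.card_zmod]

/-- A random matrix of functionals makes the blown-up pairing injective. -/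
theorem exists_blow_injective (β : R →ₗ[ZMod 2] M →ₗ[ZMod 2] C)
    (hgap : ∀ L : Submodule (ZMod 2) R, L ≠ ⊥ →
      finrank (ZMod 2) L + finrank (ZMod 2) (pairAnn β L) < finrank (ZMod 2) M) :
    ∃ d, 0 < d ∧ ∃ c : Fin d → Fin d → Dual (ZMod 2) C, Function.Injective (blow β c) := by
  classical
  haveI : Fintype R := Fintype.ofFinite R
  haveI : Fintype (Submodule (ZMod 2) R) := Fintype.ofFinite _
  haveI : Finite (Dual (ZMod 2) C) := Module.finite_of_finite (ZMod 2)
  haveI : Fintype (Dual (ZMod 2) C) := Fintype.ofFinite _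
  set d := Fintype.card (Submodule (ZMod 2) R) with hd
  have hd0 : 0 < d := Fintype.card_pos
  set e := finrank (ZMod 2) (Fin d → Dual (ZMod 2) C)
  refine ⟨d, hd0, ?_⟩
  by_contra hcon
  push Not at hcon
  let bad : (Fin d → R) → Finset (Fin d → Fin d → Dual (ZMod 2) C) := fun r =>
    Finset.univ.filter fun c => blow β c r = 0
  let spans : Submodule (ZMod 2) R → Finset (Fin d → R) := fun L =>
    Finset.univ.filter fun r => Submodule.span (ZMod 2) (Set.range r) = L
  let good : Finset (Submodule (ZMod 2) R) := Finset.univ.filter fun L => L ≠ ⊥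
  have hcover : (Finset.univ : Finset (Fin d → Fin d → Dual (ZMod 2) C)) ⊆
      good.biUnion fun L => (spans L).biUnion bad := by
    intro c _
    obtain ⟨r, hr, hr0⟩ : ∃ r, blow β c r = 0 ∧ r ≠ 0 := by
      by_contra h
      push Not at h
      exact hcon c (LinearMap.ker_eq_bot.1 (eq_bot_iff.2 fun r hr =>
        (Submodule.mem_bot _).2 (h r (LinearMap.mem_ker.1 hr))))
    simp only [Finset.mem_biUnion, good, spans, bad, Finset.mem_filter, Finset.mem_univ, true_and]
    refine ⟨_, fun h => hr0 (funext fun j => ?_), r, rfl, hr⟩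
    exact (Submodule.mem_bot _).1 (h.le (Submodule.subset_span ⟨j, rfl⟩))
  have hbad : ∀ L ∈ good, ∀ r ∈ spans L,
      (bad r).card * (2 ^ (finrank (ZMod 2) L + 1)) ^ d ≤ (2 ^ e) ^ d := by
    intro L hL r hr
    simp only [good, spans, Finset.mem_filter, Finset.mem_univ, true_and] at hL hr
    set T := rowMap β r with hT
    have hker : (bad r).card = Nat.card (LinearMap.ker T) ^ d := by
      have h1 : (bad r).card = Nat.card (Fin d → LinearMap.ker T) := by
        rw [← Nat.card_eq_finsetCard]
        refine Nat.card_congr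
          { toFun := fun c i => ⟨c.1 i, ?_⟩
            invFun := fun c => ⟨fun i => (c i).1, ?_⟩
            left_inv := fun c => rfl
            right_inv := fun c => rfl }
        · rw [LinearMap.mem_ker]
          ext m
          have h := c.2
          simp only [bad, Finset.mem_filter, Finset.mem_univ, true_and] at h
          rw [hT, rowMap_apply, ← blow_apply β c.1 r i m, h]
          rfl
        · simp only [bad, Finset.mem_filter, Finset.mem_univ, true_and]
          ext i m
          rw [blow_apply]
          have h : rowMap β r (c i).1 = 0 := LinearMap.mem_ker.1 (c i).2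
          rw [← rowMap_apply β r (c i).1 m, h]
          rfl
      rw [h1, Nat.card_fun, Nat.card_eq_fintype_card (α := Fin d), Fintype.card_fin]
    have hann : (LinearMap.range T).dualCoannihilator ≤ pairAnn β L := by
      intro m hm
      rw [Submodule.mem_dualCoannihilator] at hm
      have hz : ∀ j, β (r j) m = 0 := fun j => by
        refine (Module.forall_dual_apply_eq_zero_iff (ZMod 2) _).1 fun f => ?_
        have h := hm _ ⟨Pi.single j f, rfl⟩
        rw [hT, rowMap_apply] at h
        rw [Finset.sum_eq_single j (fun i _ hi => by simp [Pi.single_eq_of_ne hi]) (by simp)] at h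
        simpa using h
      rw [mem_pairAnn]
      intro x hx
      have hle : L ≤ LinearMap.ker (β.flip m) := by
        rw [← hr, Submodule.span_le]
        rintro _ ⟨j, rfl⟩
        simpa using hz j
      simpa using hle hx
    have h2 := Subspace.finrank_add_finrank_dualCoannihilator_eq (LinearMap.range T)
    have h3 := Submodule.finrank_mono hann
    have h4 := hgap L hL
    have h5 := T.finrank_range_add_finrank_ker
    rw [hker, card_eq_two_pow (LinearMap.ker T), ← mul_pow, ← pow_add]
    exact Nat.pow_le_pow_left (Nat.pow_le_pow_right two_pos (by omega)) d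
  have hL : ∀ L ∈ good, ((spans L).biUnion bad).card * 2 ^ d ≤ (2 ^ e) ^ d := by
    intro L hL
    refine le_trans (Nat.mul_le_mul_right _ Finset.card_biUnion_le) ?_
    rw [Finset.sum_mul]
    have hn : (spans L).card ≤ (2 ^ finrank (ZMod 2) L) ^ d := by
      rw [← card_eq_two_pow L, ← Nat.card_eq_finsetCard]
      have : Nat.card (Fin d → L) = Nat.card L ^ d := by
        rw [Nat.card_fun, Nat.card_eq_fintype_card (α := Fin d), Fintype.card_fin]
      rw [← this]
      refine Nat.card_le_card_of_injective (fun r j => ⟨r.1 j, ?_⟩) fun a b h => Subtype.ext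
        (funext fun j => congrArg Subtype.val (congrFun h j))
      have h := r.2
      simp only [spans, Finset.mem_filter, Finset.mem_univ, true_and] at h
      exact h.le (Submodule.subset_span ⟨j, rfl⟩)
    refine Nat.le_of_mul_le_mul_right (c := (2 ^ finrank (ZMod 2) L) ^ d) ?_ (by positivity)
    rw [Finset.sum_mul]
    calc _ ≤ ∑ r ∈ spans L, (2 ^ e) ^ d := Finset.sum_le_sum fun r hr => by
          rw [mul_assoc, ← mul_pow, ← pow_succ']
          exact hbad L hL r hr
      _ ≤ _ := by
        rw [Finset.sum_const, smul_eq_mul, mul_comm]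
        exact Nat.mul_le_mul_left _ hn
  have h1 := (Finset.card_le_card hcover).trans Finset.card_biUnion_le
  have huniv : (Finset.univ : Finset (Fin d → Fin d → Dual (ZMod 2) C)).card = (2 ^ e) ^ d := by
    rw [← card_eq_two_pow, Finset.card_univ, ← Nat.card_eq_fintype_card, Nat.card_fun,
      Nat.card_eq_fintype_card (α := Fin d), Fintype.card_fin]
  rw [huniv] at h1
  have h2 := Nat.mul_le_mul_right (2 ^ d) h1
  rw [Finset.sum_mul] at h2
  have h3 := h2.trans (Finset.sum_le_sum hL)
  rw [Finset.sum_const, smul_eq_mul, mul_comm] at h3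
  have h4 : 2 ^ d ≤ good.card := Nat.le_of_mul_le_mul_right h3 (by positivity)
  have h5 : good.card ≤ d := Finset.card_le_univ good
  exact (h4.trans h5).not_gt Nat.lt_two_pow_self

end Blow

/-- A finite module has a simple section `N` with `|N| ^ ℓ ≤ |E|`, `ℓ` its length. -/
theorem exists_small_section {A : Type u} [Ring A] {E : Type u} [AddCommGroup E] [Module A E]
    [Finite E] [Nontrivial E] :
    ∃ ℓ : ℕ, 0 < ℓ ∧ Module.length A E = ℓ ∧ ∃ P P' : Submodule A E,
      IsSimpleModule A (↥P ⧸ P'.comap P.subtype) ∧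
      Nat.card (↥P ⧸ P'.comap P.subtype) ^ ℓ ≤ Nat.card E := by
  classical
  obtain ⟨s, hs₁, hs₂⟩ := exists_compositionSeries_of_isNoetherian_isArtinian A E
  have hlen := Module.length_compositionSeries s hs₁ hs₂
  have hpos : 0 < s.length := by
    have := Module.length_pos (R := A) (M := E)
    rw [← hlen] at this
    exact_mod_cast this
  let q : Fin s.length → ℕ := fun i =>
    Nat.card (↥(s i.succ) ⧸ (s i.castSucc).comap (s i.succ).subtype)
  haveI : Nonempty (Fin s.length) := ⟨⟨0, hpos⟩⟩
  obtain ⟨i, hi⟩ := Finite.exists_min q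
  have hle : ∀ j : Fin (s.length + 1), q i ^ (j : ℕ) ≤ Nat.card (s j) := by
    intro j
    induction j using Fin.induction with
    | zero =>
      rw [show s 0 = s.head from rfl, hs₁]
      simp
    | succ j ih =>
      have hcov : s j.castSucc ≤ s j.succ := (s.step j).le
      rw [Fin.val_succ, pow_succ,
        Submodule.card_eq_card_quotient_mul_card ((s j.castSucc).comap (s j.succ).subtype),
        mul_comm (Nat.card _) (Nat.card _),
        Nat.card_congr (Submodule.comapSubtypeEquivOfLe hcov).toEquiv]
      exact (Nat.mul_le_mul (by simpa using ih) (hi j)).trans_eq (mul_comm _ _)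
  refine ⟨s.length, hpos, hlen.symm, s i.succ, s i.castSucc,
    (covBy_iff_quot_is_simple (s.step i).le).1 (s.step i), ?_⟩
  have h := hle (Fin.last _)
  rw [show s (Fin.last _) = s.last from rfl, hs₂, Fin.val_last] at h
  exact h.trans_eq (Nat.card_congr Submodule.topEquiv.toEquiv)

/-- The simple section. -/
theorem exists_simple_section {G : Type u} [Group G] [Finite G] {R M C D : Type u} [AddCommGroup R]
    [AddCommGroup M] [AddCommGroup C] [AddCommGroup D] [Module (ZMod 2) R] [Module (ZMod 2) M]
    [Module (ZMod 2) C] [Module (ZMod 2) D] [Finite R] [Finite M] [Finite C] [Finite D]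
    [Nontrivial M] (ρR : Representation (ZMod 2) G R) (ρM : Representation (ZMod 2) G M)
    (ρD : Representation (ZMod 2) G D) (e : D ≃ₗ[ZMod 2] Dual (ZMod 2) M)
    (he : ∀ g x m, e (ρD g x) m = e x (ρM g⁻¹ m)) (β : R →ₗ[ZMod 2] M →ₗ[ZMod 2] C)
    (hequiv : ∀ g r m, β (ρR g r) (ρM g m) = β r m)
    (hgap : ∀ L : Submodule (ZMod 2) R, L ≠ ⊥ →
      finrank (ZMod 2) L + finrank (ZMod 2) (pairAnn β L) < finrank (ZMod 2) M) :
    ∃ (N : Type u) (_ : AddCommGroup N) (_ : Module (MonoidAlgebra (ZMod 2) G) N),
      Finite N ∧ IsSimpleModule (MonoidAlgebra (ZMod 2) G) N ∧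
      Nat.card N * Nat.card R ≤ Nat.card M ∧
      ∀ z : MonoidAlgebra (ZMod 2) G, ρD.asAlgebraHom z = 0 → ∀ n : N, z • n = 0 := by
  classical
  obtain ⟨d, hd, c, hinj⟩ := exists_blow_injective β hgap
  set A := MonoidAlgebra (ZMod 2) G
  haveI : Finite ρR.asModule := inferInstanceAs (Finite R)
  haveI : Finite ρD.asModule := inferInstanceAs (Finite D)
  let f₀ : (Fin d → ρR.asModule) →ₗ[ZMod 2] (Fin d → ρD.asModule) :=
    (LinearEquiv.piCongrRight fun _ => ρD.asModuleEquiv.trans e).symm.toLinearMap ∘ₗ blow β c ∘ₗ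
      (LinearEquiv.piCongrRight fun _ => ρR.asModuleEquiv).toLinearMap
  let f : (Fin d → ρR.asModule) →ₗ[A] (Fin d → ρD.asModule) :=
    MonoidAlgebra.equivariantOfLinearOfComm f₀ fun g r => by
      funext i
      rw [Pi.smul_apply, Representation.single_smul, one_smul]
      apply (ρD.asModuleEquiv.trans e).injective
      apply LinearMap.ext
      intro m
      simp only [f₀, LinearMap.comp_apply, LinearEquiv.coe_coe, LinearEquiv.piCongrRight_symm,
        LinearEquiv.piCongrRight_apply, LinearEquiv.apply_symm_apply]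
      show _ = e (ρD g (e.symm (blow β c (fun j => ρR.asModuleEquiv (r j)) i))) m
      rw [he, LinearEquiv.apply_symm_apply, blow_apply, blow_apply]
      refine Finset.sum_congr rfl fun j _ => ?_
      show c i j (β (ρR.asModuleEquiv ((MonoidAlgebra.single g (1 : ZMod 2)) • r j)) m) = _
      rw [Representation.single_smul, one_smul]
      congr 1
      have h := hequiv g (ρR.asModuleEquiv (r j)) (ρM g⁻¹ m)
      rw [Representation.self_inv_apply] at h
      exact h
  have hf : Function.Injective f := by
    intro a b h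
    have h' : f₀ a = f₀ b := h
    simp only [f₀, LinearMap.comp_apply, LinearEquiv.coe_coe, EmbeddingLike.apply_eq_iff_eq] at h'
    exact (LinearEquiv.injective _) (hinj h')
  set E := (Fin d → ρD.asModule) ⧸ LinearMap.range f with hE
  haveI : Finite E := Finite.of_surjective _ (Submodule.Quotient.mk_surjective _)
  have hcardM : Nat.card ρD.asModule = Nat.card M := by
    show Nat.card D = _
    rw [card_eq_two_pow D, e.finrank_eq, Subspace.dual_finrank_eq, ← card_eq_two_pow]
  have hpi : ∀ X : Type u, Nat.card (Fin d → X) = Nat.card X ^ d := fun X => by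
    rw [Nat.card_fun, Nat.card_eq_fintype_card (α := Fin d), Fintype.card_fin]
  have hcardE : Nat.card E * Nat.card R ^ d = Nat.card M ^ d := by
    rw [← hcardM, ← hpi, ← hpi, Submodule.card_eq_card_quotient_mul_card (LinearMap.range f),
      mul_comm]
    congr 1
    exact Nat.card_congr ((LinearEquiv.ofInjective f hf).toEquiv)
  have hRM : Nat.card R < Nat.card M := by
    rw [card_eq_two_pow R, card_eq_two_pow M]
    refine Nat.pow_lt_pow_right one_lt_two ?_
    by_cases h0 : (⊤ : Submodule (ZMod 2) R) = ⊥
    · rw [← finrank_top (R := ZMod 2) (M := R), h0, finrank_bot]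
      exact finrank_pos
    · have := hgap ⊤ h0
      rw [finrank_top] at this
      omega
  haveI : Nontrivial E := by
    rw [← Finite.one_lt_card_iff_nontrivial]
    by_contra h
    have h1 : Nat.card M ^ d ≤ 1 * Nat.card R ^ d := hcardE ▸ Nat.mul_le_mul_right _ (not_lt.1 h)
    rw [one_mul] at h1
    exact h1.not_gt (Nat.pow_lt_pow_left hRM hd.ne')
  obtain ⟨ℓ, hℓ, hlen, P, P', hsimp, hcard⟩ := exists_small_section (A := A) (E := E)
  have hdℓ : d ≤ ℓ := by
    have h := Module.length_eq_add_of_exact f (LinearMap.range f).mkQ hf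
      (Submodule.mkQ_surjective _) (LinearMap.exact_map_mkQ_range f)
    rw [Module.length_pi, Module.length_pi, hlen] at h
    obtain ⟨a, ha⟩ := ENat.ne_top_iff_exists.1 (Module.length_ne_top (R := A) (M := ρD.asModule))
    obtain ⟨b, hb⟩ := ENat.ne_top_iff_exists.1 (Module.length_ne_top (R := A) (M := ρR.asModule))
    rw [← ha, ← hb, ENat.card_eq_coe_fintype_card, Fintype.card_fin] at h
    have h' : d * a = d * b + ℓ := by exact_mod_cast h
    refine Nat.le_of_dvd hℓ ((Nat.dvd_add_right (dvd_mul_right d b)).1 ?_)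
    exact h' ▸ dvd_mul_right d a
  haveI : Finite (↥P ⧸ P'.comap P.subtype) :=
    Finite.of_surjective _ (Submodule.Quotient.mk_surjective _)
  refine ⟨↥P ⧸ P'.comap P.subtype, inferInstance, inferInstance, inferInstance, hsimp, ?_,
    fun z hz n => ?_⟩
  · refine (Nat.pow_le_pow_iff_left hd.ne').1 ?_
    rw [mul_pow, ← hcardE]
    exact Nat.mul_le_mul_right _ ((Nat.pow_le_pow_right Nat.card_pos hdℓ).trans hcard)
  · have hz' : ∀ x : Fin d → ρD.asModule, z • x = 0 := fun x => funext fun i => by
      apply ρD.asModuleEquiv.injective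
      rw [Pi.smul_apply, Representation.asModuleEquiv_map_smul, hz]
      simp
    induction n using Submodule.Quotient.induction_on with
    | _ p =>
      obtain ⟨x, hx⟩ := Submodule.Quotient.mk_surjective _ (p : E)
      have h0 : z • p = 0 := Subtype.ext (by
        rw [Submodule.coe_smul, ← hx, ← Submodule.Quotient.mk_smul, hz']
        rfl)
      rw [← Submodule.Quotient.mk_smul, h0]
      rfl

end Cfsg.Agent.OffThm
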