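import Cfsg.Agent.OffThm.NoFF
import Cfsg.Agent.FusionAux.MinParabolic

/-!
In a constrained group without section `S₄` every element is a product of an element normalizing
`Z(S)` and one normalizing `J(S)`.
-/

set_option autoImplicit false
set_option linter.unusedSectionVars false

open scoped IsMulCommutative

namespace Cfsg.Agent.OffThm

open Cfsg.Agent.CF (IsSyl Nz omZ actHom fixSub)
open Cfsg.Agent.Fusion (cj cj_eq_of_mem)
open Cfsg.Agent.FusionAux.MinParabolic (Constr zOf centralizer_omZ_le elemAb_sq)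
open Cfsg.Agent.FusionAux (NoOffender.IsOff)

universe u

variable {X : Type u} [Group X] [Finite X]

theorem exists_mul_mem_normalizers [Fact (Nat.Prime 2)] (hC : Constr X)
    (hS4 : ¬ Cfsg.Involves (Equiv.Perm (Fin 4)) X) (S : Sylow 2 X) (x : X) :
    ∃ a ∈ Nz (zOf (S : Subgroup X)),
      ∃ b ∈ Nz (Cfsg.thompsonSubgroupOf 2 (S : Subgroup X)), x = a * b := by
  set Q := Cfsg.pCore 2 X with hQ
  have hQS : Q ≤ (S : Subgroup X) := Cores.pCore_le_sylow S
  have : (omZ 2 Q).Normal := CF.omZ_normal Q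
  set V := Subgroup.normalClosure (omZ 2 (S : Subgroup X) : Set X) with hV
  have hVn : V.Normal := Subgroup.normalClosure_normal
  have hVQ : V ≤ omZ 2 Q := by
    refine Subgroup.normalClosure_le_normal ((Subgroup.closure_le _).2 fun z hz => ?_)
    exact Subgroup.subset_closure ⟨⟨hC (Subgroup.centralizer_le hQS hz.1.2),
      Subgroup.centralizer_le hQS hz.1.2⟩, hz.2⟩
  have : IsMulCommutative V := ⟨⟨fun a b => Subtype.ext
    (Subgroup.mem_centralizer_iff.1 ((CF.omZ_le_inf 2 Q) (hVQ b.2)).2 a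
      (CF.omZ_le 2 Q (hVQ a.2)))⟩⟩
  have hV2 : ∀ v ∈ V, v ^ 2 = 1 := fun v hv => CF.pow_eq_one_of_mem_omZ v (hVQ hv)
  set C := Subgroup.centralizer (V : Set X) with hCdef
  have hCn : C.Normal := by rw [hCdef]; infer_instance
  have hCz : C ≤ Subgroup.centralizer (zOf (S : Subgroup X) : Set X) :=
    (Subgroup.centralizer_le Subgroup.le_normalClosure).trans (centralizer_omZ_le hC S)
  set π := QuotientGroup.mk' C with hπ
  have hπs : Function.Surjective π := QuotientGroup.mk'_surjective C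
  have hO : Cfsg.pCore 2 (X ⧸ C) = ⊥ := by
    refine eq_bot_iff.2 fun q hq => Subgroup.mem_bot.2 ?_
    obtain ⟨g, rfl⟩ := hπs q
    refine (QuotientGroup.eq_one_iff g).2 (Subgroup.mem_centralizer_iff.2 fun v hv => ?_)
    have : Cfsg.pCore 2 (X ⧸ C) ≤ (S.mapSurjective hπs : Subgroup (X ⧸ C)) :=
      Cores.pCore_le_sylow _
    have hle : V ≤ Subgroup.centralizer ({g} : Set X) := by
      rw [hV]
      refine (Subgroup.closure_le _).2 fun w hw => ?_
      obtain ⟨z, hz, hc⟩ := Group.mem_conjugatesOfSet_iff.1 hw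
      obtain ⟨k, rfl⟩ := isConj_iff.1 hc
      rw [SetLike.mem_coe, Subgroup.mem_centralizer_singleton_iff]
      have h1 : π (k⁻¹ * g * k) ∈ Cfsg.pCore 2 (X ⧸ C) := by
        simpa using (Cores.pCore_normal_inst (p := 2) (X ⧸ C)).conj_mem _ hq (π k)⁻¹
      obtain ⟨s, hs, he⟩ := (this h1 : π (k⁻¹ * g * k) ∈ (S : Subgroup X).map π)
      have h2 : s⁻¹ * (k⁻¹ * g * k) ∈ C := QuotientGroup.eq.1 he
      have h3 : z * (s⁻¹ * (k⁻¹ * g * k)) = s⁻¹ * (k⁻¹ * g * k) * z :=
        Subgroup.mem_centralizer_iff.1 h2 z (Subgroup.subset_normalClosure hz)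
      have h4 : s * z = z * s :=
        Subgroup.mem_centralizer_iff.1 ((CF.omZ_le_inf 2 _) hz).2 s hs
      have h5 : z * (k⁻¹ * g * k) = (k⁻¹ * g * k) * z := by
        calc z * (k⁻¹ * g * k) = z * s * (s⁻¹ * (k⁻¹ * g * k)) := by group
          _ = s * (z * (s⁻¹ * (k⁻¹ * g * k))) := by rw [← h4]; group
          _ = (k⁻¹ * g * k) * z := by rw [h3]; group
      symm
      calc g * (k * z * k⁻¹) = k * ((k⁻¹ * g * k) * z) * k⁻¹ := by group
        _ = k * (z * (k⁻¹ * g * k)) * k⁻¹ := by rw [h5]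
        _ = k * z * k⁻¹ * g := by group
    exact Subgroup.mem_centralizer_singleton_iff.1 (hle hv)
  have hVS : V ≤ (S : Subgroup X) := hVQ.trans ((CF.omZ_le 2 Q).trans hQS)
  have hJC : ∀ A ∈ Modules.maxElemAbIn 2 (S : Subgroup X), A ≤ C := by
    rintro A ⟨hAS, hA, hmax⟩
    by_contra hAC
    refine not_isOff_of_core_eq_bot (φ := actHom V) (CF.actHom_injective V)
      (fun v => Subtype.ext (by show (v : X) * v = 1; rw [← sq]; exact hV2 v v.2)) hO
      (CF.not_involves_three V (IsPGroup.to_le S.2 hVS) hS4) (A.map π) ⟨?_, ?_, ?_⟩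
    · rw [Ne, Subgroup.map_eq_bot_iff, QuotientGroup.ker_mk']
      exact hAC
    · rintro _ ⟨a, ha, rfl⟩
      rw [← map_mul, elemAb_sq hA a ha, map_one]
    · exact CF.card_le_of_max V hA (hmax _ (sup_le (inf_le_left.trans hAS) hVS)
        (CF.elemAb_competitor V hV2 hA))
  set T := (S : Subgroup X) ⊓ C with hT
  have hJ : Cfsg.thompsonSubgroupOf 2 T = Cfsg.thompsonSubgroupOf 2 (S : Subgroup X) := by
    obtain ⟨A₀, hA₀⟩ := Modules.maxElemAbIn_nonempty 2 (S : Subgroup X)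
    rw [Modules.thompsonSubgroupOf_eq_sSup, Modules.thompsonSubgroupOf_eq_sSup]
    congr 1
    ext A
    constructor
    · exact fun hA => ⟨hA.1.trans inf_le_left, hA.2.1, fun B hB hBe => (hA₀.2.2 B hB hBe).trans
        (hA.2.2 A₀ (le_inf hA₀.1 (hJC A₀ hA₀)) hA₀.2.1)⟩
    · exact fun hA => ⟨le_inf hA.1 (hJC A hA), hA.2.1, fun B hB hBe =>
        hA.2.2 B (hB.trans inf_le_left) hBe⟩
  obtain ⟨n, hn, y, -, hy, rfl⟩ := (CF.isSyl_sylow S).frattini le_top
    (Subgroup.normalizer_eq_top_iff.2 hCn).ge (Subgroup.mem_top x)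
  refine ⟨n, ?_, y, ?_, rfl⟩
  · refine (Subgroup.centralizer_le_normalizer _) (hCz hn)
  · rw [← hJ, CF.mem_Nz, cj, Modules.map_thompsonSubgroupOf (MulAut.conj y).injective]
    exact congrArg _ (cj_eq_of_mem hy)

end Cfsg.Agent.OffThm
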