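import Cfsg.Agent.OffThm.Quot

/-!
The offender theorem: if a group without section `S₃`, with a Sylow 2-subgroup `S` in a unique maximal
subgroup `Mx`, acts faithfully on a module generated by the translates of a subgroup `Y` stable under
`Mx` on which `S` has no over-offender, then there is no offender on the module.
-/

set_option autoImplicit false
set_option linter.unusedSectionVars false
set_option linter.unusedVariables false
set_option linter.style.haveILetI false

namespace Cfsg.Agent.OffThm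

open Subgroup
open Cfsg.Agent.Fusion (cj mem_cj conj_mem_cj cj_cj cj_inv_cj card_cj)
open Cfsg.Agent.CF (fixSub apply_mul IsSyl isSyl_sylow Nz)
open Cfsg.Agent.FusionAux.NoOffender

universe u

variable {G : Type u} [Group G] [Finite G] {M : Type u} [CommGroup M] [Finite M]
  {φ : G →* MulAut M} {S : Sylow 2 G} {Mx : Subgroup G} {Y : Subgroup M}

/-- The kernel part: elements of a normal `Q` moving `M` only into the fixed points. -/
def shift (φ : G →* MulAut M) (Q : Subgroup G) : Subgroup G where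
  carrier := {q | q ∈ Q ∧ ∀ m, delta φ q m ∈ fixSub φ (⊤ : Subgroup G)}
  one_mem' := ⟨Q.one_mem, fun m => by
    rw [delta_apply, map_one]
    exact (mul_inv_cancel m).symm ▸ one_mem _⟩
  mul_mem' {a b} ha hb := ⟨Q.mul_mem ha.1 hb.1, fun m => by
    have h : delta φ (a * b) m = delta φ a m * delta φ b m := by
      rw [delta_apply, apply_mul, apply_eq_delta_mul φ b m, map_mul, hb.2 m a trivial,
        apply_eq_delta_mul φ a m]
      rw [mul_assoc, mul_inv_cancel_right, mul_comm]
    rw [h]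
    exact mul_mem (ha.2 m) (hb.2 m)⟩
  inv_mem' {a} ha := ⟨Q.inv_mem ha.1, fun m => by
    have h := ha.2 (φ a⁻¹ m)
    rw [delta_apply, apply_inv_apply] at h
    have h2 := inv_mem h
    rwa [mul_inv_rev, inv_inv] at h2⟩

theorem shift_normal (φ : G →* MulAut M) (Q : Subgroup G) [Q.Normal] : (shift φ Q).Normal := by
  refine ⟨fun q hq g => ⟨Subgroup.Normal.conj_mem ‹_› q hq.1 g, fun m => ?_⟩⟩
  have h := hq.2 (φ g⁻¹ m)
  have e : delta φ (g * q * g⁻¹) m = φ g (delta φ q (φ g⁻¹ m)) := by
    rw [delta_apply, delta_apply, map_mul (φ g), map_inv (φ g), apply_inv_apply, apply_mul,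
      apply_mul]
  rw [e, h g trivial]
  exact h

theorem delta_mul_shift {Q : Subgroup G} {a b : G} (hb : b ∈ shift φ Q) (m : M) :
    delta φ (a * b) m = delta φ a m * delta φ b m := by
  rw [delta_apply, apply_mul, apply_eq_delta_mul φ b m, map_mul, hb.2 m a trivial,
    apply_eq_delta_mul φ a m, mul_assoc, mul_inv_cancel_right, mul_comm]

theorem shift_ext {Q : Subgroup G} (hinj : Function.Injective φ) {a b : G}
    (h : ∀ m, delta φ a m = delta φ b m) : a = b :=
  hinj (MulEquiv.ext fun m => by rw [apply_eq_delta_mul φ a m, h, ← apply_eq_delta_mul])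

/-- The offender theorem for one setting, given it for the smaller ones. -/
theorem Setting.not_isOff [Fact (Nat.Prime 2)] (D : Setting φ S Mx Y)
    (ih : Inductive.{u} (Nat.card G + Nat.card M)) (A₀ : Subgroup G) : ¬ IsOff φ A₀ := by
  classical
  intro hoff
  obtain ⟨A₁, -, hA₁⟩ := exists_minOff hoff
  obtain ⟨z, -, hz⟩ := (isSyl_sylow S).exists_conj_le (isPGroup_of_sq hA₁.1.2.1) le_top
  obtain ⟨A, hA, hAS⟩ : ∃ A, IsMinOff φ A ∧ A ≤ (S : Subgroup G) := ⟨_, hA₁.cj z, hz⟩
  have hM := D.exp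
  have hAM : A ≤ Mx := hAS.trans D.uniq.le
  set Q := Cfsg.pCore 2 G with hQdef
  haveI hQn : Q.Normal := Cores.pCore_normal_inst (p := 2) G
  have hQoff : ∀ B ≤ Q, ¬ IsOff φ B := fun B hB =>
    not_isOff_normal D.inj D.good D.gen hQn Cores.pCore_isPGroup hB
  have hQS : Q ≤ (S : Subgroup G) := Cores.pCore_le_sylow S
  have step : ∀ K : Subgroup G, K ≠ ⊤ → A ≤ K → K ≤ Mx := fun K hK hAK =>
    D.le_of_minOff_le ih hK hA hAS hAK
  have hnorm : Nz Mx ≤ Mx := by
    refine D.uniq.max _ (D.uniq.le.trans Subgroup.le_normalizer) fun h => ?_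
    have hn : Mx.Normal := Subgroup.normalizer_eq_top_iff.1 h
    exact hQoff A (fun a ha => D.mem_pCore (hAS ha) fun g => hn.conj_mem a (hAM ha) g) hA.1
  have hgen : ∀ g, g ∉ Mx → A ⊔ cj g A = ⊤ := by
    intro g hg
    by_contra hne
    have h1 : cj g A ≤ Mx := le_sup_right.trans (step _ hne le_sup_left)
    obtain ⟨z, hz, hz'⟩ := (IsSyl.sylow_inf D.uniq.le).exists_conj_le
      (Fusion.isPGroup_cj (isPGroup_of_sq hA.1.2.1) g) h1
    rw [cj_cj] at hz'
    have h2 : cj (z * g) Mx ≤ Mx :=
      D.le_of_minOff_le ih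
        (fun h => D.uniq.ne (by rw [← cj_inv_cj (z * g) Mx, h, CF.cj_top])) (hA.cj _) hz'
        (Fusion.cj_mono _ hAM)
    have h3 : cj (z * g) Mx = Mx := Subgroup.eq_of_le_of_card_ge h2 (card_cj _ _).ge
    exact hg (by simpa using Mx.mul_mem (Mx.inv_mem hz) (hnorm (CF.mem_Nz.2 h3)))
  have Γ : Geom A Mx Q :=
    ⟨hAM, hA.1.2.1, step, hgen, fun a ha h => D.mem_pCore (hAS ha) h⟩
  obtain ⟨g, hg⟩ : ∃ g, g ∉ Mx := by
    by_contra h
    push Not at h
    exact D.uniq.ne (eq_top_iff.2 fun x _ => h x)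
  obtain ⟨a₀, ha₀, ha₀Q⟩ : ∃ a ∈ A, a ∉ Q :=
    SetLike.not_le_iff_exists.1 fun h => hQoff A h hA.1
  -- the fixed points of `A`
  set U := fixSub φ A with hU
  have hYU : Y ≤ U := le_fixer_iff.1 (D.le_fixer hA hAM)
  have hquad : ∀ a ∈ A, ∀ v, delta φ a v ∈ U := fun a ha v => hA.quadratic hM ha v
  have hspanM : ∀ k, k ∉ Mx → U ⊔ tr φ k U = ⊤ := fun k hk => by
    rw [eq_top_iff, ← D.gen]
    refine iSup_le fun x => ?_
    rintro _ ⟨y, hy, rfl⟩
    exact apply_mem_span Γ hquad hk x (Subgroup.mem_sup_left (hYU hy))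
  set C₀ := fixSub φ (⊤ : Subgroup G) with hC₀
  have hC₀U : C₀ ≤ U := fixSub_anti φ le_top
  have hinter : ∀ k, k ∉ Mx → U ⊓ tr φ k U = C₀ := fun k hk => le_antisymm
    (fun v hv => fixed_of_mem_inter Γ hk hv.1 hv.2)
    (le_inf hC₀U ((map_fixTop φ k).ge.trans (Subgroup.map_mono hC₀U)))
  -- the action on the quotient
  set ψ := quotHom φ with hψ
  set π := QuotientGroup.mk' C₀ with hπ
  set U' := fixSub ψ A with hU'
  have hUU' : U.map π ≤ U' := by
    rintro _ ⟨m, hm, rfl⟩ a ha
    show ψ a (m : M ⧸ C₀) = _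
    rw [quotHom_mk, hm a ha]; rfl
  have hquad' : ∀ a ∈ A, ∀ q, delta ψ a q ∈ U' := by
    intro a ha q
    induction q using QuotientGroup.induction_on with
    | _ m => exact hUU' ⟨delta φ a m, hquad a ha m, rfl⟩
  have hspan' : ∀ k, k ∉ Mx → U' ⊔ tr ψ k U' = ⊤ := fun k hk => by
    rw [eq_top_iff, ← Subgroup.map_top_of_surjective π (QuotientGroup.mk'_surjective C₀),
      ← hspanM k hk, Subgroup.map_sup]
    refine sup_le_sup hUU' ?_
    rintro _ ⟨_, ⟨u, hu, rfl⟩, rfl⟩
    exact ⟨π u, hUU' ⟨u, hu, rfl⟩, rfl⟩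
  have hnormal : ∀ B : Subgroup G, B = A ∨ B = cj g A → ∀ w, w ∈ fixSub φ B →
      (∀ h : G, delta φ h w ∈ C₀) → w ∈ C₀ := by
    intro B hB w hw hall
    have hn : (stab φ w).Normal := by
      refine ⟨fun k hk h => ?_⟩
      show φ (h * k * h⁻¹) w = w
      rw [apply_mul, apply_mul, apply_eq_delta_mul φ h⁻¹ w, map_mul (φ k),
        hall h⁻¹ k trivial, show φ k w = w from hk, ← apply_eq_delta_mul, apply_inv_apply]
    have hle : B ≤ stab φ w := fun b hb => hw b hb
    have hA' : A ≤ stab φ w := by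
      rcases hB with rfl | rfl
      · exact hle
      · intro a ha
        have h := hn.conj_mem _ (hle (conj_mem_cj.2 ha)) g⁻¹
        simpa [mul_assoc] using h
    have hgA : cj g A ≤ stab φ w := by
      rintro _ ⟨a, ha, rfl⟩
      exact hn.conj_mem _ (hA' ha) g
    intro h _
    exact (sup_le hA' hgA) ((hgen g hg).ge (mem_top h))
  have hfix' : fixSub ψ (⊤ : Subgroup G) = ⊥ := by
    refine eq_bot_iff.2 fun q hq => ?_
    induction q using QuotientGroup.induction_on with
    | _ m =>
      have hall : ∀ h : G, delta φ h m ∈ C₀ := fun h => by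
        have h1 : ((φ h m : M) : M ⧸ C₀) = (m : M ⧸ C₀) := hq h trivial
        rw [delta_apply, mul_comm]
        exact QuotientGroup.eq.1 h1.symm
      refine Subgroup.mem_bot.2 ((QuotientGroup.eq_one_iff m).2 ?_)
      obtain ⟨x, hx, w, hw, hxw⟩ := Subgroup.mem_sup.1 ((hspanM g hg).ge (mem_top m))
      have hwB : w ∈ fixSub φ (cj g A) := by rw [fixSub_cj]; exact hw
      let St : Subgroup G :=
        { carrier := {h | delta φ h w ∈ C₀}
          one_mem' := by
            show delta φ 1 w ∈ C₀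
            rw [delta_apply, map_one]
            exact (mul_inv_cancel w).symm ▸ one_mem _
          mul_mem' := fun {a b} ha hb => by
            show delta φ (a * b) w ∈ C₀
            have e : delta φ (a * b) w = φ a (delta φ b w) * delta φ a w := by
              rw [delta_apply, delta_apply, delta_apply, apply_mul, map_mul (φ a), map_inv (φ a),
                mul_assoc, inv_mul_cancel_left]
            rw [e, hb a trivial]
            exact mul_mem hb ha
          inv_mem' := fun {a} ha => by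
            show delta φ a⁻¹ w ∈ C₀
            have e : delta φ a⁻¹ w = φ a⁻¹ (delta φ a w)⁻¹ := by
              rw [delta_apply, delta_apply, mul_inv_rev, inv_inv, map_mul (φ a⁻¹),
                map_inv (φ a⁻¹), inv_apply_apply, mul_comm]
            rw [e, (inv_mem ha : (delta φ a w)⁻¹ ∈ C₀) a⁻¹ trivial]
            exact inv_mem ha }
      have hSt : A ⊔ cj g A ≤ St := by
        refine sup_le (fun a ha => ?_) fun b hb => ?_
        · show delta φ a w ∈ C₀
          have e : delta φ a m = delta φ a x * delta φ a w := by rw [← hxw, map_mul]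
          rw [show delta φ a x = 1 by rw [delta_apply, hx a ha, mul_inv_cancel], one_mul] at e
          exact e ▸ hall a
        · show delta φ b w ∈ C₀
          rw [delta_apply, hwB b hb, mul_inv_cancel]
          exact one_mem _
      have hw0 : w ∈ C₀ :=
        hnormal _ (Or.inr rfl) w hwB fun h => hSt ((hgen g hg).ge (mem_top h))
      exact hnormal A (Or.inl rfl) m (hxw ▸ mul_mem hx (hC₀U hw0)) hall
  have hfree : ∀ v, v ∉ U' → ∀ a ∈ A, ψ a v = v → a ∈ Q := fun v hv a ha hav =>
    mem_core_of_fix Γ hfix' hspan' hv ha hav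
  -- an element of odd order without fixed points
  set e₀ := g * a₀ * g⁻¹ with he₀
  have hx0 : ∀ v, ψ (a₀ * e₀) v = v → v = 1 := by
    intro v hv
    have h1 : ψ e₀ v = ψ a₀ v := by
      conv_rhs => rw [← hv]
      rw [← apply_mul, ← mul_assoc, hA.1.2.1 a₀ ha₀, one_mul]
    have hd : delta ψ a₀ v ∈ tr ψ g U' := by
      refine ⟨delta ψ a₀ (ψ g⁻¹ v), hquad' a₀ ha₀ _, ?_⟩
      show ψ g (delta ψ a₀ (ψ g⁻¹ v)) = delta ψ a₀ v
      rw [delta_apply, delta_apply, map_mul (ψ g), map_inv (ψ g), apply_inv_apply, ← h1, he₀,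
        apply_mul, apply_mul]
    have h2 : delta ψ a₀ v = 1 :=
      Subgroup.mem_bot.1 (hfix'.le (fixed_of_mem_inter Γ hg (hquad' a₀ ha₀ v) hd))
    have h3 : ψ a₀ v = v := mul_inv_eq_one.1 h2
    have h4 : v ∈ U' := by
      by_contra h
      exact ha₀Q (hfree v h a₀ ha₀ h3)
    have h5 : ψ a₀ (ψ g⁻¹ v) = ψ g⁻¹ v := by
      have h : ψ g⁻¹ (ψ e₀ v) = ψ g⁻¹ v := by rw [h1, h3]
      rwa [← apply_mul, he₀, show g⁻¹ * (g * a₀ * g⁻¹) = a₀ * g⁻¹ by group, apply_mul] at h
    have h6 : ψ g⁻¹ v ∈ U' := by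
      by_contra h
      exact ha₀Q (hfree _ h a₀ ha₀ h5)
    exact Subgroup.mem_bot.1 (hfix'.le (fixed_of_mem_inter Γ hg h4
      ⟨_, h6, apply_inv_apply ψ g v⟩))
  obtain ⟨s, m, hm, hsm⟩ : ∃ s m : ℕ, ¬ 2 ∣ m ∧ orderOf (a₀ * e₀) = 2 ^ s * m :=
    ⟨_, _, Nat.not_dvd_ordCompl Nat.prime_two (orderOf_pos _).ne',
      (Nat.ordProj_mul_ordCompl_eq_self (orderOf _) 2).symm⟩
  have hmo : Odd m := Nat.odd_iff.2 (Nat.two_dvd_ne_zero.1 hm)
  set y := (a₀ * e₀) ^ 2 ^ s with hy
  have hym : y ^ m = 1 := by rw [hy, ← pow_mul, ← hsm, pow_orderOf_eq_one]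
  have hyfix : ∀ v, ψ y v = v → v = 1 := no_fixed_pow _ hx0 (sq_quot φ hM) s
  -- the pairing
  set Rg := shift φ Q with hRg
  haveI hRn : Rg.Normal := shift_normal φ Q
  have hRcomm : ∀ a b : Rg, a * b = b * a := fun a b => Subtype.ext (shift_ext (Q := Q) D.inj
    fun x => by
      show delta φ ((a : G) * b) x = delta φ ((b : G) * a) x
      rw [delta_mul_shift b.2, delta_mul_shift a.2, mul_comm])
  letI : CommGroup Rg := { (inferInstance : Group Rg) with mul_comm := hRcomm }
  have hR2 : ∀ a : Rg, a * a = 1 := fun a => Subtype.ext (shift_ext (Q := Q) D.inj fun x => by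
    show delta φ ((a : G) * a) x = delta φ 1 x
    rw [delta_mul_shift a.2, hM, delta_apply, map_one]
    exact (mul_inv_cancel x).symm)
  letI := zmodTwo Rg hR2
  letI := zmodTwo C₀ fun c => Subtype.ext (hM c)
  letI := zmodTwo (M ⧸ C₀) (sq_quot φ hM)
  let toC : Rg → (M ⧸ C₀) →* C₀ := fun r => QuotientGroup.lift C₀
    ((delta φ (r : G)).codRestrict C₀ r.2.2) fun c hc => Subtype.ext (by
      show delta φ (r : G) c = 1
      rw [delta_apply, hc _ trivial, mul_inv_cancel])
  have htoC : ∀ (r : Rg) (x : M), (toC r (x : M ⧸ C₀) : M) = delta φ (r : G) x := fun r x => rfl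
  let β : Additive Rg →ₗ[ZMod 2] Additive (M ⧸ C₀) →ₗ[ZMod 2] Additive C₀ :=
    AddMonoidHom.toZModLinearMap 2
      (AddMonoidHom.mk' (fun r => (MonoidHom.toAdditive (toC (Additive.toMul r))).toZModLinearMap 2)
        fun r r' => LinearMap.ext fun q => by
          obtain ⟨x, hx⟩ := QuotientGroup.mk_surjective (Additive.toMul q)
          refine Additive.toMul.injective (Subtype.ext ?_)
          show (toC (Additive.toMul r * Additive.toMul r') (Additive.toMul q) : M) =
            (toC (Additive.toMul r) (Additive.toMul q) * toC (Additive.toMul r') (Additive.toMul q) :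
              C₀)
          rw [← hx, Subgroup.coe_mul, htoC, htoC, htoC, Subgroup.coe_mul]
          exact delta_mul_shift (Additive.toMul r').2 x)
  have hβ : ∀ (r : Rg) (x : M), ((Additive.toMul (β (Additive.ofMul r)
      (Additive.ofMul (x : M ⧸ C₀))) : C₀) : M) = delta φ (r : G) x := fun r x => rfl
  set cR : G →* MulAut Rg := MulAut.conjNormal with hcR
  set ρR := repOf cR
  set ρM := repOf ψ with hρM
  have hequiv : ∀ k r q, β (ρR k r) (ρM k q) = β r q := by
    intro k r q
    obtain ⟨r, rfl⟩ := Additive.ofMul.surjective r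
    obtain ⟨q, rfl⟩ := Additive.ofMul.surjective q
    obtain ⟨x, rfl⟩ := QuotientGroup.mk_surjective q
    refine Additive.toMul.injective (Subtype.ext ?_)
    rw [repOf_apply, repOf_apply]
    show ((Additive.toMul (β (Additive.ofMul (cR k r))
      (Additive.ofMul ((φ k x : M) : M ⧸ C₀))) : C₀) : M) = _
    rw [hβ, hβ, hcR, MulAut.conjNormal_apply, delta_apply, delta_apply, apply_mul, apply_mul,
      inv_apply_apply, ← map_inv (φ k), ← map_mul (φ k)]
    exact r.2.2 x k trivial
  have hgap : ∀ L : Submodule (ZMod 2) (Additive Rg), L ≠ ⊥ →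
      Module.finrank (ZMod 2) L + Module.finrank (ZMod 2) (pairAnn β L) <
        Module.finrank (ZMod 2) (Additive (M ⧸ C₀)) := by
    intro L hL
    let L' : Subgroup Rg :=
      { carrier := {r | Additive.ofMul r ∈ L}
        one_mem' := L.zero_mem
        mul_mem' := fun {a b} ha hb => L.add_mem ha hb
        inv_mem' := fun {a} ha => L.neg_mem ha }
    let K' : Subgroup (M ⧸ C₀) :=
      { carrier := {q | Additive.ofMul q ∈ pairAnn β L}
        one_mem' := (pairAnn β L).zero_mem
        mul_mem' := fun {a b} ha hb => (pairAnn β L).add_mem ha hb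
        inv_mem' := fun {a} ha => (pairAnn β L).neg_mem ha }
    set LG := L'.map Rg.subtype with hLG
    have hLQ : LG ≤ Q := by rintro _ ⟨r, -, rfl⟩; exact r.2.1
    have hnoff := hQoff LG hLQ
    have hne : LG ≠ ⊥ := by
      rw [hLG, Ne, Subgroup.map_eq_bot_iff_of_injective _ Rg.subtype_injective]
      intro h
      refine hL (eq_bot_iff.2 fun r hr => (Submodule.mem_bot _).2 ?_)
      have h1 : Additive.toMul r = 1 := Subgroup.mem_bot.1 (h.le (show Additive.toMul r ∈ L' from hr))
      exact congrArg Additive.ofMul h1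
    have hsq : ∀ a ∈ LG, a * a = 1 := by
      rintro _ ⟨r, -, rfl⟩
      exact congrArg Subtype.val (hR2 r)
    have hlt : Nat.card LG * Nat.card (fixSub φ LG) < Nat.card M :=
      not_le.1 fun h => hnoff ⟨hne, hsq, h⟩
    have hfL : fixSub φ LG = K'.comap π := by
      ext x
      constructor
      · intro hx
        show Additive.ofMul (π x) ∈ pairAnn β L
        rw [mem_pairAnn]
        intro r hr
        refine Additive.toMul.injective (Subtype.ext ?_)
        show ((Additive.toMul (β (Additive.ofMul (Additive.toMul r))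
          (Additive.ofMul (x : M ⧸ C₀))) : C₀) : M) = 1
        rw [hβ, delta_apply, (hx _ ⟨Additive.toMul r, hr, rfl⟩ : φ ((Additive.toMul r : Rg) : G) x = x),
          mul_inv_cancel]
      · rintro hx _ ⟨r, hr, rfl⟩
        have h := mem_pairAnn.1 hx (Additive.ofMul r) hr
        have h2 := congrArg (fun c => ((Additive.toMul c : C₀) : M)) h
        have h3 : delta φ (r : G) x = 1 := (hβ r x).symm.trans h2
        exact mul_inv_eq_one.1 h3
    have e1 : Nat.card LG = Nat.card L :=
      (card_map_of_injective Rg.subtype_injective).trans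
        (Nat.card_congr (Equiv.subtypeEquiv Additive.ofMul fun r => Iff.rfl))
    have e2 : Nat.card (fixSub φ LG) = Nat.card C₀ * Nat.card (pairAnn β L) := by
      have e3 : Nat.card K' = Nat.card (pairAnn β L) :=
        Nat.card_congr (Equiv.subtypeEquiv Additive.ofMul fun r => Iff.rfl)
      rw [hfL, ← e3]
      rw [Cores.card_comap_mk_eq C₀ K']
    have e4 : Nat.card M = Nat.card C₀ * Nat.card (Additive (M ⧸ C₀)) := by
      rw [Subgroup.card_eq_card_quotient_mul_card_subgroup C₀, mul_comm]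
      rfl
    rw [e1, e2, e4, mul_left_comm] at hlt
    have hlt' := Nat.lt_of_mul_lt_mul_left hlt
    rw [card_eq_two_pow L, card_eq_two_pow (pairAnn β L), card_eq_two_pow (Additive (M ⧸ C₀)),
      ← pow_add] at hlt'
    exact (Nat.pow_lt_pow_iff_right one_lt_two).1 hlt'
  have hntriv : Nontrivial (Additive (M ⧸ C₀)) := by
    by_contra h
    rw [not_nontrivial_iff_subsingleton] at h
    refine hA.1.1 (eq_bot_iff.2 fun a ha => Subgroup.mem_bot.2 (D.inj (MulEquiv.ext fun x => ?_)))
    have hx : x ∈ C₀ := (QuotientGroup.eq_one_iff x).1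
      (congrArg Additive.toMul (Subsingleton.elim (Additive.ofMul (x : M ⧸ C₀)) 0))
    rw [map_one]
    exact hx a trivial
  haveI : Finite (Module.Dual (ZMod 2) (Additive (M ⧸ fixSub φ (⊤ : Subgroup G)))) :=
    Module.finite_of_finite (ZMod 2)
  obtain ⟨N, _, _, _, hsimp, hNcard, hann⟩ := exists_simple_section ρR ρM (dualRep ρM)
    (LinearEquiv.refl _ _) (fun k f v => rfl) β hequiv hgap
  haveI := hsimp
  -- relations of the group algebra on `N`
  set ψN := modHom (G := G) N with hψN
  have hN2 := modHom_sq (G := G) N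
  have hquadN : ∀ a ∈ A, ∀ n, delta ψN a n ∈ fixSub ψN A := by
    intro a ha n b hb
    have hz := hann ((MonoidAlgebra.of (ZMod 2) G b - 1) * (MonoidAlgebra.of (ZMod 2) G a - 1))
      (LinearMap.ext fun f => LinearMap.ext fun v => by
        simp only [map_mul, map_sub, map_one, Representation.asAlgebraHom_of,
          Module.End.mul_apply, LinearMap.sub_apply, Module.End.one_apply, map_sub,
          dualRep_apply, LinearMap.zero_apply]
        simp only [← map_sub]
        obtain ⟨v, rfl⟩ := Additive.ofMul.surjective v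
        rw [inv_eq_of_mul_eq_one_right (hA.1.2.1 a ha), inv_eq_of_mul_eq_one_right (hA.1.2.1 b hb)]
        refine (congrArg f ?_).trans (map_zero f)
        refine Additive.toMul.injective ?_
        simp only [hρM, repOf_apply, toMul_sub, toMul_ofMul, toMul_zero]
        have h := hquad' b hb v a ha
        rw [delta_apply] at h
        simp only [div_eq_mul_inv]
        rw [mul_inv_eq_one]
        exact h) (Multiplicative.toAdd n)
    rw [mul_smul, sub_smul, sub_smul, one_smul, one_smul, sub_eq_zero] at hz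
    show ψN b (delta ψN a n) = delta ψN a n
    rw [delta_apply, hψN, modHom_apply, modHom_apply]
    refine Multiplicative.toAdd.injective ?_
    rw [toAdd_ofAdd, toAdd_mul, toAdd_ofAdd, toAdd_inv, ← sub_eq_add_neg]
    exact hz
  have hpow : ∀ n : N, powSum y m • n = 0 := hann _ (LinearMap.ext fun f => LinearMap.ext fun v => by
    simp only [powSum, map_sum, Representation.asAlgebraHom_of, LinearMap.sum_apply, dualRep_apply,
      LinearMap.zero_apply]
    rw [← map_sum f]
    obtain ⟨v, rfl⟩ := Additive.ofMul.surjective v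
    refine (congrArg f ?_).trans (map_zero f)
    refine Additive.toMul.injective ?_
    simp only [hρM, repOf_apply, toMul_sum, toMul_ofMul, toMul_zero]
    set P := ∏ i ∈ Finset.range m, ψ (y ^ i)⁻¹ v with hP
    have hfix : ψ y⁻¹ P = P := by
      have h1 : ψ y⁻¹ P = ∏ i ∈ Finset.range m, ψ (y ^ (i + 1))⁻¹ v := by
        rw [hP, map_prod]
        exact Finset.prod_congr rfl fun i _ => by rw [← apply_mul, pow_succ, mul_inv_rev]
      have h2 := Finset.prod_range_succ' (fun i => ψ (y ^ i)⁻¹ v) m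
      rw [Finset.prod_range_succ, hym, pow_zero] at h2
      rw [h1, hP]
      exact (mul_right_cancel h2).symm
    refine hyfix P ?_
    conv_lhs => rw [← hfix]
    rw [apply_inv_apply])
  haveI : Nontrivial N := IsSimpleModule.nontrivial (MonoidAlgebra (ZMod 2) G) N
  obtain ⟨n₀, hn₀⟩ := exists_ne (0 : N)
  have hn₀' : Multiplicative.ofAdd n₀ ≠ 1 := fun h => hn₀ h
  have hfixN : fixSub ψN (⊤ : Subgroup G) = ⊥ := by
    refine (invariant_eq_bot_or_top (G := G) _ fun k n hn => ?_).resolve_right fun h => hn₀ ?_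
    · rw [show modHom N k n = n from hn k trivial]; exact hn
    · have hfx : MonoidAlgebra.of (ZMod 2) G y • n₀ = n₀ :=
        congrArg Multiplicative.toAdd ((h.ge (mem_top (Multiplicative.ofAdd n₀))) y trivial)
      rw [← powSum_smul_of_fix hmo hfx, hpow]
  obtain ⟨u, huU, hu1⟩ := exists_fixed_two ψN (isPGroup_of_sq hA.1.2.1) hN2 hn₀'
  have hspanN : ∀ k, k ∉ Mx → fixSub ψN A ⊔ tr ψN k (fixSub ψN A) = ⊤ := fun k hk =>
    (invariant_eq_bot_or_top (G := G) _ fun x n hn => apply_mem_span Γ hquadN hk x hn).resolve_left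
      fun h => hu1 (Subgroup.mem_bot.1 (h.le (Subgroup.mem_sup_left huU)))
  -- counting
  set w := Nat.card (fixSub ψN A)
  have hNw : Nat.card N = w * w := by
    have h := card_sup_mul_card_inf (fixSub ψN A) (tr ψN g (fixSub ψN A))
    have hd : fixSub ψN A ⊓ tr ψN g (fixSub ψN A) = ⊥ :=
      le_bot_iff.1 fun v hv => hfixN.le (fixed_of_mem_inter Γ hg hv.1 hv.2)
    rw [hspanN g hg, hd, Subgroup.card_top, Subgroup.card_bot, mul_one,
      card_map_of_injective (f := (ψN g).toMonoidHom) (ψN g).injective] at h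
    exact h
  set B := A ⊓ Q with hB
  have hBR : B ≤ Rg := by
    intro b hb
    refine ⟨hb.2, fun x => ?_⟩
    have hle : (⊤ : Subgroup M) ≤ C₀.comap (delta φ b) := by
      rw [← D.gen]
      refine iSup_le fun k => ?_
      rintro _ ⟨v, hv, rfl⟩
      show delta φ b (φ k v) ∈ C₀
      by_cases hk : k ∈ Mx
      · have h : φ k v ∈ U := hYU ((D.inv k hk).le ⟨v, hv, rfl⟩)
        rw [delta_apply, h b hb.1, mul_inv_cancel]
        exact one_mem _
      rw [← hinter k hk]
      refine ⟨hquad b hb.1 _, Subgroup.map_mono hYU ?_⟩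
      have hbk : k⁻¹ * b * k ∈ Mx :=
        D.uniq.le (hQS (by simpa using hQn.conj_mem b hb.2 k⁻¹))
      refine (tr φ k Y).mul_mem ⟨φ (k⁻¹ * b * k) v, (D.inv _ hbk).le ⟨v, hv, rfl⟩, ?_⟩
        ((tr φ k Y).inv_mem ⟨v, hv, rfl⟩)
      show φ k (φ (k⁻¹ * b * k) v) = φ b (φ k v)
      rw [← apply_mul, ← apply_mul]
      congr 2
      group
    exact hle (mem_top x)
  have hRcard : Nat.card B * Nat.card B ≤ Nat.card (Additive Rg) := by
    rw [← Nat.card_prod]
    refine Nat.card_le_card_of_injective (fun p => Additive.ofMul (⟨(p.1 : G) * (g * p.2 * g⁻¹),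
      Rg.mul_mem (hBR p.1.2) (hRn.conj_mem _ (hBR p.2.2) g)⟩ : Rg)) fun p q hpq => ?_
    have h : (p.1 : G) * (g * p.2 * g⁻¹) = q.1 * (g * q.2 * g⁻¹) :=
      congrArg Subtype.val (Additive.ofMul.injective hpq)
    set d := (q.1 : G)⁻¹ * p.1 with hd
    have hdA : d ∈ A := A.mul_mem (A.inv_mem q.1.2.1) p.1.2.1
    have hdg : d ∈ cj g A := by
      have e : d = g * (q.2 * (p.2 : G)⁻¹) * g⁻¹ := by
        rw [hd, inv_mul_eq_iff_eq_mul]
        calc (p.1 : G) = (p.1 : G) * (g * p.2 * g⁻¹) * (g * p.2 * g⁻¹)⁻¹ := by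
              rw [mul_inv_cancel_right]
          _ = _ := by rw [h]; group
      rw [e]
      exact conj_mem_cj.2 (A.mul_mem q.2.2.1 (A.inv_mem p.2.2.1))
    have hd1 : d = 1 := by
      refine D.inj (MulEquiv.ext fun x => ?_)
      obtain ⟨x₁, hx₁, x₂, hx₂, rfl⟩ := Subgroup.mem_sup.1 ((hspanM g hg).ge (mem_top x))
      rw [tr, ← fixSub_cj] at hx₂
      rw [map_one, map_mul, hx₁ d hdA, hx₂ d hdg]
      rfl
    have e1 : (q.1 : G) = p.1 := inv_mul_eq_one.1 hd1
    have e2 : (q.2 : G) = p.2 := by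
      rw [e1] at h
      simpa using h.symm
    exact Prod.ext (Subtype.ext e1.symm) (Subtype.ext e2.symm)
  have hUU : Nat.card M * Nat.card C₀ = Nat.card U * Nat.card U := by
    have h := card_sup_mul_card_inf U (tr φ g U)
    rwa [hspanM g hg, hinter g hg, Subgroup.card_top,
      card_map_of_injective (f := (φ g).toMonoidHom) (φ g).injective] at h
  have hUle : Nat.card U ≤ Nat.card A * Nat.card C₀ := by
    refine Nat.le_of_mul_le_mul_right (c := Nat.card U) ?_ Nat.card_pos
    rw [← hUU, mul_right_comm]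
    exact Nat.mul_le_mul_right _ hA.1.2.2
  have hMbar : Nat.card (Additive (M ⧸ C₀)) ≤ Nat.card A * Nat.card A := by
    have e : Nat.card M = Nat.card (Additive (M ⧸ C₀)) * Nat.card C₀ :=
      Subgroup.card_eq_card_quotient_mul_card_subgroup C₀
    refine Nat.le_of_mul_le_mul_right (c := Nat.card C₀ * Nat.card C₀) ?_
      (Nat.mul_pos Nat.card_pos Nat.card_pos)
    rw [← mul_assoc, ← e, hUU, mul_mul_mul_comm]
    exact Nat.mul_le_mul hUle hUle
  have hkey : w * Nat.card B ≤ Nat.card A := by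
    refine Nat.mul_self_le_mul_self_iff.1 ?_
    rw [mul_mul_mul_comm, ← hNw]
    exact (Nat.mul_le_mul_left _ hRcard).trans (hNcard.trans hMbar)
  exact D.free (involves_of_card_le Γ hN2 hfixN hquadN hspanN hg hn₀' hkey)

/-- The offender theorem. -/
theorem not_isOff_unique (hinj : Function.Injective φ) (hM : ∀ m : M, m * m = 1)
    (hS3 : ¬ Cfsg.Involves (Equiv.Perm (Fin 3)) G) (S : Sylow 2 G) {Mx : Subgroup G}
    (hu : Unique (S : Subgroup G) Mx) (Y : Subgroup M) (hgood : Good φ (S : Subgroup G) Y)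
    (hY : ∀ g ∈ Mx, tr φ g Y = Y) (hgen : (⨆ g : G, tr φ g Y) = ⊤) (A : Subgroup G) :
    ¬ IsOff φ A := by
  have : Fact (Nat.Prime 2) := ⟨Nat.prime_two⟩
  suffices h : ∀ n, Inductive.{u} n from
    h _ φ (Nat.lt_succ_self (Nat.card G + Nat.card M)) hinj hM hS3 S Mx hu Y hgood hY hgen A
  intro n
  induction n with
  | zero => exact fun ψ h => absurd h (Nat.not_lt_zero _)
  | succ n ih =>
    intro X _ _ W _ _ ψ hlt hψ hW hS' T Mx' hu' Z hZ hinv hg B hB
    rcases Nat.lt_succ_iff_lt_or_eq.1 hlt with h | h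
    · exact ih ψ h hψ hW hS' T Mx' hu' Z hZ hinv hg B hB
    subst h
    by_cases hZtop : Z = ⊤
    · subst hZtop
      obtain ⟨y, -, hy⟩ := (isSyl_sylow T).exists_conj_le (isPGroup_of_sq hB.2.1) le_top
      exact not_isOff_of_good hψ hZ hy (hB.cj y)
    exact Setting.not_isOff ⟨hψ, hW, hS', hu', hZ, hinv, hg, hZtop⟩ ih B hB

end Cfsg.Agent.OffThm
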