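import Cfsg.Agent.OffThm.Main

/-!
The largest good subgroup is invariant under every overgroup of the Sylow subgroup; consequently a
finite group without section `S₃` and with trivial 2-core has no failure-of-factorization offender on a
faithful module over the field with two elements.
-/

set_option autoImplicit false
set_option linter.unusedSectionVars false
set_option linter.unusedVariables false
set_option linter.style.haveILetI false

namespace Cfsg.Agent.OffThm

open Subgroup
open Cfsg.Agent.Fusion (cj mem_cj conj_mem_cj cj_cj cj_inv_cj card_cj)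
open Cfsg.Agent.CF (fixSub apply_mul IsSyl isSyl_sylow Nz)
open Cfsg.Agent.FusionAux.NoOffender

universe u

variable {G : Type u} [Group G] {M : Type u} [CommGroup M]

/-- The stabilizer of a subgroup. -/
def stabSub (φ : G →* MulAut M) (Y : Subgroup M) : Subgroup G where
  carrier := {g | tr φ g Y = Y}
  one_mem' := tr_one φ Y
  mul_mem' {a b} ha hb := by
    show tr φ (a * b) Y = Y
    rw [tr_mul, show tr φ b Y = Y from hb, show tr φ a Y = Y from ha]
  inv_mem' {a} ha := by
    show tr φ a⁻¹ Y = Y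
    conv_lhs => rw [← show tr φ a Y = Y from ha]
    rw [← tr_mul, inv_mul_cancel, tr_one]

theorem fixer_le_stabSub (φ : G →* MulAut M) (Y : Subgroup M) : fixer φ Y ≤ stabSub φ Y := by
  intro g hg
  refine le_antisymm ?_ fun y hy => ⟨y, hy, hg y hy⟩
  rintro _ ⟨y, hy, rfl⟩
  show φ g y ∈ Y
  rwa [hg y hy]

/-- The largest subgroup on which `S` has no over-offender. -/
def maxGood (φ : G →* MulAut M) (S : Subgroup G) : Subgroup M :=
  ⨆ Y : {Y : Subgroup M // Good φ S Y}, (Y : Subgroup M)

theorem le_maxGood {φ : G →* MulAut M} {S : Subgroup G} {Y : Subgroup M} (h : Good φ S Y) :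
    Y ≤ maxGood φ S :=
  le_iSup (fun Z : {Z : Subgroup M // Good φ S Z} => (Z : Subgroup M)) ⟨Y, h⟩

variable [Finite G] [Finite M]

theorem good_maxGood (φ : G →* MulAut M) (S : Subgroup G) : Good φ S (maxGood φ S) :=
  Good.iSup rfl fun Z => Z.2

theorem normalizer_le_stabSub (φ : G →* MulAut M) (S : Subgroup G) :
    Nz S ≤ stabSub φ (maxGood φ S) := by
  intro g hg
  refine Subgroup.eq_of_le_of_card_ge (le_maxGood ?_)
    (card_map_of_injective (f := (φ g).toMonoidHom) (φ g).injective).ge
  have h := (good_maxGood φ S).map g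
  rwa [CF.mem_Nz.1 hg] at h

/-- Every overgroup of `S` stabilizes the largest good subgroup. -/
theorem le_stabSub [Fact (Nat.Prime 2)] (φ : G →* MulAut M) (hM : ∀ m : M, m * m = 1)
    (hS3 : ¬ Cfsg.Involves (Equiv.Perm (Fin 3)) G) (S : Sylow 2 G) :
    ∀ K : Subgroup G, (S : Subgroup G) ≤ K → K ≤ stabSub φ (maxGood φ (S : Subgroup G)) := by
  set Y := maxGood φ (S : Subgroup G) with hY
  intro K
  induction K using WellFoundedLT.induction with
  | _ K ih =>
    intro hSK
    have hSY : (S : Subgroup G) ≤ stabSub φ Y :=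
      Subgroup.le_normalizer.trans (normalizer_le_stabSub φ _)
    rcases eq_or_lt_of_le hSK with h | hlt
    · exact h ▸ hSY
    obtain ⟨M₁, -, hM₁⟩ := (Set.toFinite {H : Subgroup G | (S : Subgroup G) ≤ H ∧ H < K}).exists_le_maximal
      (a := (S : Subgroup G)) ⟨le_rfl, hlt⟩
    by_cases hu : ∀ H : Subgroup G, (S : Subgroup G) ≤ H → H < K → H ≤ M₁
    swap
    · push Not at hu
      obtain ⟨M₂, hSM₂, hM₂K, hM₂⟩ := hu
      have hsup : M₁ ⊔ M₂ = K := by
        refine (eq_or_lt_of_le (sup_le hM₁.prop.2.le hM₂K.le)).resolve_right fun h => hM₂ ?_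
        exact le_sup_right.trans_eq (hM₁.eq_of_le ⟨hM₁.prop.1.trans le_sup_left, h⟩ le_sup_left).symm
      rw [← hsup]
      exact sup_le (ih M₁ hM₁.prop.2 hM₁.prop.1) (ih M₂ hM₂K hSM₂)
    set W := ⨆ k : K, tr φ (k : G) Y with hW
    have hYW : Y ≤ W := le_iSup_of_le (1 : K) (tr_one φ Y).ge
    have htrW : ∀ h ∈ K, tr φ h W = W := fun h hh => by
      rw [hW, tr, Subgroup.map_iSup]
      have e : ∀ k : K, (tr φ (k : G) Y).map (φ h).toMonoidHom =
          tr φ (((⟨h, hh⟩ : K) * k : K) : G) Y := fun k => (tr_mul φ h k Y).symm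
      rw [iSup_congr e]
      exact (Equiv.mulLeft (⟨h, hh⟩ : K)).surjective.iSup_comp (g := fun k : K => tr φ (k : G) Y)
    by_cases hCM : K ⊓ fixer φ W ≤ M₁
    swap
    · have hsup : (K ⊓ fixer φ W) ⊔ (S : Subgroup G) = K := by
        refine (eq_or_lt_of_le (sup_le inf_le_left hSK)).resolve_right fun h => hCM ?_
        exact le_sup_left.trans (hu _ le_sup_right h)
      rw [← hsup]
      exact sup_le (inf_le_right.trans ((fixer_anti φ hYW).trans (fixer_le_stabSub φ Y))) hSY
    suffices hgood : Good φ (S : Subgroup G) W by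
      intro k hk
      have h1 : W = Y := le_antisymm (le_maxGood hgood) hYW
      exact (h1 ▸ htrW k hk : tr φ k Y = Y)
    have hinv : ∀ h ∈ K, ∀ w ∈ W, φ h w ∈ W := fun h hh w hw => (htrW h hh).le ⟨w, hw, rfl⟩
    set ψ := restrictHom φ K W hinv with hψ
    set π := ψ.rangeRestrict with hπ
    have hπs : Function.Surjective π := ψ.rangeRestrict_surjective
    have hker : ∀ h : K, π h = 1 → (h : G) ∈ fixer φ W := fun h he w hw => by
      have : ((π h : MulAut W) ⟨w, hw⟩ : M) = φ (h : G) w := rfl
      rw [← this, he]; rfl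
    have I : Induced φ K W π ψ.range.subtype := ⟨hπs, fun h w => rfl, hker⟩
    set SK : Sylow 2 K := S.subtype hSK
    let S' : Sylow 2 ψ.range := SK.mapSurjective hπs
    have hS'coe : (S' : Subgroup ψ.range) = ((S : Subgroup G).subgroupOf K).map π := rfl
    set M' := (M₁.subgroupOf K).map π with hM'
    have hu' : Unique (S' : Subgroup ψ.range) M' := by
      refine ⟨hS'coe.le.trans (Subgroup.map_mono fun t ht => Subgroup.mem_subgroupOf.2
        (hM₁.prop.1 (Subgroup.mem_subgroupOf.1 ht))), fun h => hM₁.prop.2.not_ge fun x hx => ?_,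
        fun K' hK' hK'ne => ?_⟩
      · obtain ⟨m, hm, he⟩ := h.ge (Subgroup.mem_top (π ⟨x, hx⟩))
        have h1 : π (⟨x, hx⟩ * m⁻¹) = 1 := by rw [map_mul, map_inv, ← he, mul_inv_cancel]
        have h2 := M₁.mul_mem (hCM ⟨(⟨x, hx⟩ * m⁻¹ : K).2, hker _ h1⟩) (Subgroup.mem_subgroupOf.1 hm)
        simpa using h2
      · set K0 := (K'.comap π).map K.subtype with hK0
        have hK0H : K0 < K := by
          refine lt_of_le_of_ne (Subgroup.map_subtype_le _) fun h => hK'ne ?_
          refine eq_top_iff.2 fun q _ => ?_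
          obtain ⟨h', rfl⟩ := hπs q
          obtain ⟨h'', hh'', he⟩ := h.ge h'.2
          rwa [show h' = h'' from Subtype.ext he.symm]
        have hSK0 : (S : Subgroup G) ≤ K0 := fun t ht =>
          ⟨⟨t, hSK ht⟩, hK' (hS'coe.ge ⟨⟨t, hSK ht⟩, Subgroup.mem_subgroupOf.2 ht, rfl⟩), rfl⟩
        intro q hq
        obtain ⟨h', rfl⟩ := hπs q
        exact ⟨h', Subgroup.mem_subgroupOf.2 (hu K0 hSK0 hK0H ⟨h', hq, rfl⟩), rfl⟩
    have hS3' : ¬ Cfsg.Involves (Equiv.Perm (Fin 3)) ψ.range := fun h =>
      hS3 (EvenLocal.involves_of_involves_image π hπs h)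
    have : Finite (MulAut W) :=
      Finite.of_injective (fun e : MulAut W => (e : W → W)) DFunLike.coe_injective
    set Y' := Y.subgroupOf W with hY'
    have htrY : ∀ h : K, tr ψ.range.subtype (π h) Y' = (tr φ (h : G) Y).subgroupOf W := by
      intro h
      ext w
      constructor
      · rintro ⟨y, hy, rfl⟩
        exact ⟨y, hy, (I.comp h y).symm⟩
      · rintro ⟨y, hy, he⟩
        exact ⟨⟨y, hYW hy⟩, hy, Subtype.ext ((I.comp h _).trans he)⟩
    have hgood' : Good ψ.range.subtype (S' : Subgroup ψ.range) Y' := by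
      rw [hS'coe]
      refine I.good hYW ?_
      rw [map_subgroupOf_eq_of_le hSK]
      exact good_maxGood φ _
    have hinv' : ∀ q ∈ M', tr ψ.range.subtype q Y' = Y' := by
      rintro _ ⟨h, hh, rfl⟩
      rw [htrY, show tr φ (h : G) Y = Y from ih M₁ hM₁.prop.2 hM₁.prop.1 (mem_subgroupOf.1 hh)]
    have hgen' : (⨆ q : ψ.range, tr ψ.range.subtype q Y') = ⊤ := by
      refine eq_top_iff.2 fun w _ => ?_
      have hle : W ≤ (⨆ q : ψ.range, tr ψ.range.subtype q Y').map W.subtype := by
        conv_lhs => rw [hW]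
        refine iSup_le fun h => ?_
        refine le_trans ?_ (Subgroup.map_mono (le_iSup (fun q => tr ψ.range.subtype q Y') (π h)))
        rw [htrY, subgroupOf_map_subtype]
        exact le_inf le_rfl (le_iSup (fun k : K => tr φ (k : G) Y) h)
      obtain ⟨w', hw', he⟩ := hle w.2
      rwa [← Subtype.ext (he : (w' : M) = w)]
    refine I.good_lift (le_refl W) hSK ?_
    rw [subgroupOf_self, ← hS'coe]
    exact good_top_of_not_isOff Subtype.coe_injective fun A _ => not_isOff_unique
      Subtype.coe_injective (fun w => Subtype.ext (hM w)) hS3' S' hu' Y' hgood' hinv' hgen' A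

/-- A finite group without section `S₃` and with trivial 2-core has no offender on a faithful module
over the field with two elements. -/
theorem not_isOff_of_core_eq_bot {φ : G →* MulAut M} (hinj : Function.Injective φ)
    (hM : ∀ m : M, m * m = 1) (hO : Cfsg.pCore 2 G = ⊥)
    (hS3 : ¬ Cfsg.Involves (Equiv.Perm (Fin 3)) G) (A : Subgroup G) : ¬ IsOff φ A := by
  haveI : Fact (Nat.Prime 2) := ⟨Nat.prime_two⟩
  suffices h : ∀ (n : ℕ) {X : Type u} [Group X] [Finite X] {W : Type u} [CommGroup W] [Finite W]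
      (ψ : X →* MulAut W), Nat.card X + Nat.card W < n → Function.Injective ψ →
      (∀ w : W, w * w = 1) → Cfsg.pCore 2 X = ⊥ → ¬ Cfsg.Involves (Equiv.Perm (Fin 3)) X →
      ∀ B, ¬ IsOff ψ B from
    h _ φ (Nat.lt_succ_self (Nat.card G + Nat.card M)) hinj hM hO hS3 A
  intro n
  induction n using Nat.strong_induction_on with
  | _ n ih =>
    intro X _ _ W _ _ ψ hlt hψ hW hO' hS' B hB
    set C := fixSub ψ (⊤ : Subgroup X) with hC
    by_cases hC0 : C = ⊥
    swap
    · -- pass to the quotient by the fixed points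
      have hinj' : Function.Injective (quotHom ψ) := by
        refine (MonoidHom.ker_eq_bot_iff _).1 ?_
        refine eq_bot_of_normal_two hO' (isPGroup_of_sq fun x hx => hψ (MulEquiv.ext fun w => ?_))
          (Subgroup.normalizer_eq_top_iff.2 inferInstance)
        have h1 : ((ψ x w : W) : W ⧸ C) = (w : W ⧸ C) :=
          DFunLike.congr_fun (MonoidHom.mem_ker.1 hx) (w : W ⧸ C)
        have h2 : delta ψ x w ∈ C := by
          rw [delta_apply, mul_comm]
          exact QuotientGroup.eq.1 h1.symm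
        rw [map_one, apply_mul, apply_eq_delta_mul ψ x w, map_mul, h2 x trivial,
          apply_eq_delta_mul ψ x w, ← mul_assoc, hW, one_mul]
        rfl
      have hcard : Nat.card W = Nat.card (W ⧸ C) * Nat.card C :=
        Subgroup.card_eq_card_quotient_mul_card_subgroup C
      have hlt' : Nat.card X + Nat.card (W ⧸ C) < Nat.card X + Nat.card W := by
        have h2 : 1 < Nat.card C := (Subgroup.one_lt_card_iff_ne_bot C).2 hC0
        rw [hcard]
        exact Nat.add_lt_add_left (lt_mul_of_one_lt_right Nat.card_pos h2) _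
      refine ih (Nat.card X + Nat.card W) hlt (quotHom ψ) hlt' hinj' (sq_quot ψ hW) hO' hS' B
        ⟨hB.1, hB.2.1, ?_⟩
      set U := fixSub ψ B with hU
      have hle : U.map (QuotientGroup.mk' C) ≤ fixSub (quotHom ψ) B := by
        rintro _ ⟨m, hm, rfl⟩ b hb
        show ((ψ b m : W) : W ⧸ C) = (m : W ⧸ C)
        rw [hm b hb]
      have hCU : C ≤ U := fixSub_anti ψ le_top
      have hUcard : Nat.card U = Nat.card (U.map (QuotientGroup.mk' C)) * Nat.card C := by
        rw [← Cores.card_comap_mk_eq C (U.map (QuotientGroup.mk' C)) |>.trans (mul_comm _ _),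
          Subgroup.comap_map_eq, QuotientGroup.ker_mk', sup_eq_left.2 hCU]
      refine Nat.le_of_mul_le_mul_right (c := Nat.card C) ?_ Nat.card_pos
      rw [← hcard]
      calc Nat.card W ≤ Nat.card B * Nat.card U := hB.2.2
        _ = Nat.card B * Nat.card (U.map (QuotientGroup.mk' C)) * Nat.card C := by
            rw [hUcard, mul_assoc]
        _ ≤ _ := by
            gcongr
            exact Subgroup.card_le_of_le hle
    -- without fixed points the largest good subgroup has a proper centralizer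
    obtain ⟨B₁, -, hB₁⟩ := exists_minOff hB
    obtain ⟨S⟩ := (inferInstance : Nonempty (Sylow 2 X))
    obtain ⟨y, -, hy⟩ := (isSyl_sylow S).exists_conj_le (isPGroup_of_sq hB₁.1.2.1) le_top
    obtain ⟨A, hA, hAS⟩ : ∃ A, IsMinOff ψ A ∧ A ≤ (S : Subgroup X) := ⟨_, hB₁.cj y, hy⟩
    set Y := maxGood ψ (S : Subgroup X)
    have hAY : A ≤ fixer ψ Y := minOff_le_fixer hA ((good_maxGood ψ _).mono hAS)
    have hYinv : ∀ x : X, tr ψ x Y = Y := fun x =>
      le_stabSub ψ hW hS' S ⊤ le_top (mem_top x)
    set H := fixer ψ Y with hH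
    haveI hHn : H.Normal := ⟨fun k hk x => by
      have h : x * k * x⁻¹ ∈ cj x H := conj_mem_cj.2 hk
      rwa [hH, ← fixer_map, show Y.map (ψ x).toMonoidHom = Y from hYinv x] at h⟩
    obtain ⟨m₀, hm₀⟩ : ∃ m : W, m ≠ 1 := by
      by_contra h
      push Not at h
      refine hA.1.1 (eq_bot_iff.2 fun a ha => Subgroup.mem_bot.2 (hψ (MulEquiv.ext fun m => ?_)))
      rw [h m, map_one, map_one]
    obtain ⟨u, hu, hu1⟩ := exists_fixed_two ψ S.2 hW hm₀
    have hHtop : H ≠ ⊤ := fun h => hu1 (Subgroup.mem_bot.1 (hC0.le (show u ∈ C from fun x _ => by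
      have huY : u ∈ Y := by
        refine le_maxGood (Y := fixSub ψ (S : Subgroup X)) (good_of_le_fixer ?_) hu
        exact le_fixer_iff.2 le_rfl
      exact (h.ge (mem_top x) : x ∈ H) u huY)))
    have hltH : Nat.card H < Nat.card X := by
      have h := card_lt_of_lt hHtop.lt_top
      rwa [Subgroup.card_top] at h
    have hOH : Cfsg.pCore 2 H = ⊥ := by
      have h : (Cfsg.pCore 2 H).map H.subtype = ⊥ := eq_bot_of_normal_two hO'
        (Cores.pCore_isPGroup.map H.subtype) (Subgroup.normalizer_eq_top_iff.2 inferInstance)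
      exact (Subgroup.map_eq_bot_iff_of_injective _ H.subtype_injective).1 h
    refine ih (Nat.card X + Nat.card W) hlt (ψ.comp H.subtype) (by omega)
      (hψ.comp H.subtype_injective) hW hOH (fun h => hS' (EvenLocal.involves_subgroup h))
      (A.subgroupOf H) ⟨?_, ?_, ?_⟩
    · rw [Ne, Subgroup.subgroupOf_eq_bot]
      intro h
      exact hA.1.1 (h.eq_bot_of_le hAY)
    · exact fun a ha => Subtype.ext (hA.1.2.1 (a : X) ha)
    · have e1 : Nat.card (A.subgroupOf H) = Nat.card A :=
        Nat.card_congr (subgroupOfEquivOfLe hAY).toEquiv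
      have e2 : fixSub (ψ.comp H.subtype) (A.subgroupOf H) = fixSub ψ A := by
        ext m
        exact ⟨fun h a ha => h ⟨a, hAY ha⟩ ha, fun h a ha => h a ha⟩
      rw [e1, e2]
      exact hA.1.2.2

end Cfsg.Agent.OffThm
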