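import Cfsg.Agent.OffThm.Basic

/-!
Pushing up: in the setting of the offender theorem every proper subgroup containing a minimal
offender lies in the unique maximal subgroup over the Sylow subgroup.
-/

set_option autoImplicit false
set_option linter.unusedSectionVars false
set_option linter.unusedVariables false
set_option linter.style.haveILetI false

namespace Cfsg.Agent.OffThm

open Subgroup
open Cfsg.Agent.Fusion (cj mem_cj conj_mem_cj cj_cj cj_inv_cj card_cj)
open Cfsg.Agent.CF (fixSub apply_mul IsSyl isSyl_sylow Nz)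
open Cfsg.Agent.FusionAux.NoOffender

universe u

variable {G : Type u} [Group G] {M : Type u} [CommGroup M]

/-- The translate of `Y` by `g`. -/
abbrev tr (φ : G →* MulAut M) (g : G) (Y : Subgroup M) : Subgroup M := Y.map (φ g).toMonoidHom

theorem tr_mul (φ : G →* MulAut M) (g h : G) (Y : Subgroup M) :
    tr φ (g * h) Y = tr φ g (tr φ h Y) := by
  rw [tr, tr, tr, Subgroup.map_map]
  congr 1
  ext m
  exact apply_mul φ g h m

theorem tr_one (φ : G →* MulAut M) (Y : Subgroup M) : tr φ 1 Y = Y := by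
  rw [tr, map_one]
  exact Subgroup.map_id Y

/-- The setting of the offender theorem. -/
structure Setting [Finite G] (φ : G →* MulAut M) (S : Sylow 2 G) (Mx : Subgroup G) (Y : Subgroup M) :
    Prop where
  inj : Function.Injective φ
  exp : ∀ m : M, m * m = 1
  free : ¬ Cfsg.Involves (Equiv.Perm (Fin 3)) G
  uniq : Unique (S : Subgroup G) Mx
  good : Good φ (S : Subgroup G) Y
  inv : ∀ g ∈ Mx, tr φ g Y = Y
  gen : (⨆ g : G, tr φ g Y) = ⊤
  proper : Y ≠ ⊤

/-- The smaller settings have no offenders. -/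
def Inductive (c : ℕ) : Prop :=
  ∀ {X : Type u} [Group X] [Finite X] {W : Type u} [CommGroup W] [Finite W] (ψ : X →* MulAut W),
    Nat.card X + Nat.card W < c → Function.Injective ψ → (∀ w : W, w * w = 1) →
    ¬ Cfsg.Involves (Equiv.Perm (Fin 3)) X →
    ∀ (S : Sylow 2 X) (Mx : Subgroup X), Unique (S : Subgroup X) Mx →
    ∀ Y : Subgroup W, Good ψ (S : Subgroup X) Y → (∀ g ∈ Mx, tr ψ g Y = Y) →
      (⨆ g : X, tr ψ g Y) = ⊤ → ∀ A, ¬ IsOff ψ A

variable [Finite G] [Finite M] {φ : G →* MulAut M} {S : Sylow 2 G} {Mx : Subgroup G}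
  {Y : Subgroup M}

/-- A normal 2-subgroup has no offender. -/
theorem not_isOff_normal [Fact (Nat.Prime 2)] (hinj : Function.Injective φ)
    (hgood : Good φ (S : Subgroup G) Y) (hgen : (⨆ g : G, tr φ g Y) = ⊤) {P : Subgroup G}
    (hPn : P.Normal) (hP : IsPGroup 2 P) {A : Subgroup G} (hA : A ≤ P) : ¬ IsOff φ A := by
  refine not_isOff_of_good hinj (Good.iSup hgen.symm fun g => (hgood.map g).mono ?_) hA
  intro p hp
  exact mem_cj.2 (((Cores.le_pCore hPn hP).trans (Cores.pCore_le_sylow S))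
    (by simpa using hPn.conj_mem p hp g⁻¹))

namespace Setting

theorem mem_of_tr (D : Setting φ S Mx Y) {g : G} (hg : tr φ g Y = Y) : g ∈ Mx := by
  let K : Subgroup G :=
    { carrier := {h | tr φ h Y = Y}
      one_mem' := tr_one φ Y
      mul_mem' := fun {a b} (ha : tr φ a Y = Y) (hb : tr φ b Y = Y) => by
        show tr φ (a * b) Y = Y
        rw [tr_mul, hb, ha]
      inv_mem' := fun {a} (ha : tr φ a Y = Y) => by
        show tr φ a⁻¹ Y = Y
        conv_lhs => rw [← ha]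
        rw [← tr_mul, inv_mul_cancel, tr_one] }
  refine D.uniq.max K (fun s hs => D.inv s (D.uniq.le hs)) (fun h => D.proper ?_) hg
  rw [← D.gen]
  refine le_antisymm (le_iSup_of_le 1 (tr_one φ Y).ge) (iSup_le fun x => ?_)
  exact (h.ge (mem_top x) : x ∈ K).le

theorem mem_of_fixer (D : Setting φ S Mx Y) {g : G} (hg : g ∈ fixer φ Y) : g ∈ Mx := by
  refine D.mem_of_tr (le_antisymm ?_ fun y hy => ⟨y, hy, hg y hy⟩)
  rintro _ ⟨y, hy, rfl⟩
  show φ g y ∈ Y
  rwa [hg y hy]

variable [Fact (Nat.Prime 2)]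

/-- Minimal offenders inside `Mx` fix `Y`. -/
theorem le_fixer (D : Setting φ S Mx Y) {A : Subgroup G} (hA : IsMinOff φ A) (hAM : A ≤ Mx) :
    A ≤ fixer φ Y := by
  obtain ⟨z, hz, hz'⟩ := (IsSyl.sylow_inf D.uniq.le).exists_conj_le
    (isPGroup_of_sq hA.1.2.1) hAM
  have h := Fusion.cj_mono z⁻¹ (minOff_le_fixer (hA.cj z) (D.good.mono hz'))
  rwa [cj_inv_cj, ← fixer_map, show Y.map (φ z⁻¹).toMonoidHom = Y from
    D.inv _ (inv_mem hz)] at h

/-- Elements of `S` all of whose conjugates lie in `Mx` are in the 2-core. -/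
theorem mem_pCore (D : Setting φ S Mx Y) {a : G} (ha : a ∈ (S : Subgroup G))
    (h : ∀ g : G, g * a * g⁻¹ ∈ Mx) : a ∈ Cfsg.pCore 2 G := by
  set N := Mx.normalCore
  have hNz : (⊤ : Subgroup G) ≤ Nz N :=
    (Subgroup.normalizer_eq_top_iff.2 Mx.normalCore_normal).ge
  have htop : Nz ((S : Subgroup G) ⊓ N) = ⊤ := by
    by_contra hne
    refine D.uniq.ne (eq_top_iff.2 fun x _ => ?_)
    obtain ⟨n, hn, y, -, hy, rfl⟩ := (isSyl_sylow S).frattini le_top hNz (Subgroup.mem_top x)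
    refine Mx.mul_mem (Mx.normalCore_le hn) (D.uniq.max _ (fun s hs => ?_) hne hy)
    rw [CF.mem_Nz, cj, Subgroup.map_inf _ _ _ (MulAut.conj s).injective]
    exact congrArg₂ (· ⊓ ·) (Fusion.cj_eq_of_mem (Subgroup.le_normalizer hs))
      (Fusion.cj_eq_of_mem (hNz trivial))
  exact Cores.le_pCore (Subgroup.normalizer_eq_top_iff.1 htop) S.2.to_inf_left
    ⟨ha, h⟩

theorem le_of_minOff_le (D : Setting φ S Mx Y)
    (ih : Inductive.{u} (Nat.card G + Nat.card M))
    {K A : Subgroup G} (hK : K ≠ ⊤) (hA : IsMinOff φ A) (hAS : A ≤ (S : Subgroup G))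
    (hAK : A ≤ K) : K ≤ Mx := by
  by_contra hKM
  let 𝒯 : Set (Subgroup G) := {T | T ≤ (S : Subgroup G) ∧ (∃ B, IsMinOff φ B ∧ B ≤ T) ∧
    ∃ L : Subgroup G, L ≠ ⊤ ∧ ¬ L ≤ Mx ∧ T ≤ L}
  obtain ⟨T, ⟨hTS, ⟨B, hB, hBT⟩, L, hLtop, hLM, hTL⟩, hTmax⟩ :=
    Set.exists_max_image 𝒯 (fun T => Nat.card T) 𝒯.toFinite
      ⟨A, hAS, ⟨A, hA, le_rfl⟩, K, hK, hKM, hAK⟩
  have hTne : T ≠ (S : Subgroup G) := fun h => hLM (D.uniq.max L (h ▸ hTL) hLtop)
  have hTP : IsPGroup 2 T := S.2.to_le hTS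
  set J := jOff φ T with hJ
  have hJT : J ≤ T := sSup_le fun X hX => hX.2
  have hBJ : B ≤ J := le_sSup ⟨hB, hBT⟩
  have hlt := CF.lt_inf_normalizer S hTS hTne
  have hNJ : Nz J ≤ Mx := by
    by_contra hc
    have htop : Nz J ≠ ⊤ := fun h => not_isOff_normal D.inj D.good D.gen
      (Subgroup.normalizer_eq_top_iff.1 h) (hTP.to_le hJT) hBJ hB.1
    exact (hTmax ((S : Subgroup G) ⊓ Nz T) ⟨inf_le_left, ⟨B, hB, hBT.trans hlt.le⟩, Nz J, htop, hc,
      inf_le_right.trans (normalizer_le_normalizer_jOff φ T)⟩).not_gt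
      (card_lt_of_lt hlt)
  have hNT : Nz T ≤ Mx := (normalizer_le_normalizer_jOff φ T).trans hNJ
  obtain ⟨H, ⟨hTH, hHtop, hHM⟩, hHmin⟩ :=
    Set.exists_min_image {H : Subgroup G | T ≤ H ∧ H ≠ ⊤ ∧ ¬ H ≤ Mx} (fun H => Nat.card H)
      (Set.toFinite _) ⟨L, hTL, hLtop, hLM⟩
  have hmin : ∀ X : Subgroup G, T ≤ X → X < H → X ≤ Mx := fun X hX hXH => by
    by_contra hc
    exact (hHmin X ⟨hX, (hXH.trans_le le_top).ne, hc⟩).not_gt (card_lt_of_lt hXH)
  -- `T` is a Sylow subgroup of `H`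
  have hSyl : IsSyl 2 T H := by
    obtain ⟨R, hR, hTR⟩ := CF.exists_isSyl_ge hTP hTH
    rcases eq_or_lt_of_le hTR with rfl | hTR'
    · exact hR
    exfalso
    have h1 := Cfsg.Agent.Fusion.lt_normalizer_inf hR.isP hTR'
    have h2 : R ⊓ Nz T ≤ Mx := inf_le_right.trans hNT
    obtain ⟨y, hy, hy'⟩ := (IsSyl.sylow_inf D.uniq.le).exists_conj_le (hR.isP.to_inf_left) h2
    have h3 : cj y (R ⊓ Nz T) ∈ 𝒯 := by
      refine ⟨hy', ⟨cj y B, hB.cj y, Cfsg.Agent.Fusion.cj_mono y (hBT.trans h1.le)⟩, cj y H,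
        ?_, ?_, Cfsg.Agent.Fusion.cj_mono y (inf_le_left.trans hR.le)⟩
      · exact fun h => hHtop (by rw [← cj_inv_cj y H, h, CF.cj_top])
      · intro h
        refine hHM ?_
        have h' := Cfsg.Agent.Fusion.cj_mono y⁻¹ h
        rwa [cj_inv_cj, Cfsg.Agent.Fusion.cj_eq_of_mem (Subgroup.le_normalizer (inv_mem hy))] at h'
    refine (hTmax _ h3).not_gt ?_
    rw [card_cj]
    exact card_lt_of_lt h1
  set W := ⨆ h : H, tr φ (h : G) Y with hW
  have hYW : Y ≤ W := le_iSup_of_le (1 : H) (tr_one φ Y).ge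
  have htrW : ∀ h ∈ H, tr φ h W = W := fun h hh => by
    rw [hW, tr, Subgroup.map_iSup]
    have e : ∀ k : H, (tr φ (k : G) Y).map (φ h).toMonoidHom =
        tr φ (((⟨h, hh⟩ : H) * k : H) : G) Y := fun k => (tr_mul φ h k Y).symm
    rw [iSup_congr e]
    exact (Equiv.mulLeft (⟨h, hh⟩ : H)).surjective.iSup_comp (g := fun k : H => tr φ (k : G) Y)
  have hinv : ∀ h ∈ H, ∀ w ∈ W, φ h w ∈ W := fun h hh w hw => (htrW h hh).le ⟨w, hw, rfl⟩
  set C := H ⊓ fixer φ W with hC
  have hCM : C ≤ Mx := fun c hc => D.mem_of_fixer (fixer_anti φ hYW hc.2)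
  by_cases hall : ∀ X, IsMinOff φ X → X ≤ T → X ≤ C
  · -- all minimal offenders act trivially on `W`
    refine hHM fun x hx => ?_
    have hCn : H ≤ Nz C := fun h hh => by
      rw [CF.mem_Nz, hC, cj, Subgroup.map_inf _ _ _ (MulAut.conj h).injective]
      refine congrArg₂ (· ⊓ ·) (Fusion.cj_eq_of_mem (Subgroup.le_normalizer hh)) ?_
      show cj h (fixer φ W) = fixer φ W
      rw [← fixer_map]
      exact congrArg (fixer φ) (htrW h hh)
    obtain ⟨n, hn, y, -, hy, rfl⟩ := hSyl.frattini inf_le_left hCn hx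
    refine Mx.mul_mem (hCM hn) (hNJ ?_)
    have hJJ : jOff φ (T ⊓ C) = J := le_antisymm
      (sSup_le fun X hX => le_sSup ⟨hX.1, hX.2.trans inf_le_left⟩)
      (sSup_le fun X hX => le_sSup ⟨hX.1, le_inf hX.2 (hall X hX.1 hX.2)⟩)
    exact hJJ ▸ normalizer_le_normalizer_jOff φ (T ⊓ C) hy
  · push Not at hall
    obtain ⟨X, hX, hXT, hXC⟩ := hall
    have hXH : X ≤ H := hXT.trans hTH
    set ψ := restrictHom φ H W hinv with hψ
    set π := ψ.rangeRestrict with hπ
    have hπs : Function.Surjective π := ψ.rangeRestrict_surjective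
    have hker : ∀ h : H, π h = 1 ↔ (h : G) ∈ C := by
      intro h
      refine ⟨fun he => ⟨h.2, fun w hw => ?_⟩, fun he =>
        Subtype.ext (MulEquiv.ext fun w => Subtype.ext (he.2 w w.2))⟩
      have : ((π h : MulAut W) ⟨w, hw⟩ : M) = φ (h : G) w := rfl
      rw [← this, he]; rfl
    have I : Induced φ H W π ψ.range.subtype :=
      ⟨hπs, fun h w => rfl, fun h he => ((hker h).1 he).2⟩
    let P : Sylow 2 H := IsPGroup.toSylow (P := T.subgroupOf H) hTP.comap_subtype hSyl.idx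
    let S' : Sylow 2 ψ.range := P.mapSurjective hπs
    have hS'coe : (S' : Subgroup ψ.range) = (T.subgroupOf H).map π :=
      congrArg (Subgroup.map π) (IsPGroup.toSylow_coe _ _)
    set M' := ((H ⊓ Mx).subgroupOf H).map π with hM'
    have hu' : Unique (S' : Subgroup ψ.range) M' := by
      refine ⟨hS'coe.le.trans (Subgroup.map_mono fun t ht => Subgroup.mem_subgroupOf.2
        ⟨t.2, D.uniq.le (hTS (Subgroup.mem_subgroupOf.1 ht))⟩), fun h => hHM fun x hx => ?_,
        fun K' hK' hK'ne => ?_⟩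
      · obtain ⟨m, hm, he⟩ := h.ge (Subgroup.mem_top (π ⟨x, hx⟩))
        have h1 : π (⟨x, hx⟩ * m⁻¹) = 1 := by rw [map_mul, map_inv, ← he, mul_inv_cancel]
        have h2 := Mx.mul_mem (hCM ((hker _).1 h1)) (Subgroup.mem_subgroupOf.1 hm).2
        simpa using h2
      · set K0 := (K'.comap π).map H.subtype with hK0
        have hK0H : K0 < H := by
          refine lt_of_le_of_ne (Subgroup.map_subtype_le _) fun h => hK'ne ?_
          refine eq_top_iff.2 fun q _ => ?_
          obtain ⟨h', rfl⟩ := hπs q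
          obtain ⟨h'', hh'', he⟩ := h.ge h'.2
          rwa [show h' = h'' from Subtype.ext he.symm]
        have hTK0 : T ≤ K0 := fun t ht =>
          ⟨⟨t, hTH ht⟩, hK' (hS'coe.ge ⟨⟨t, hTH ht⟩, Subgroup.mem_subgroupOf.2 ht, rfl⟩), rfl⟩
        intro q hq
        obtain ⟨h', rfl⟩ := hπs q
        exact ⟨h', Subgroup.mem_subgroupOf.2 ⟨h'.2, hmin K0 hTK0 hK0H ⟨h', hq, rfl⟩⟩, rfl⟩
    have hS3' : ¬ Cfsg.Involves (Equiv.Perm (Fin 3)) ψ.range := fun h =>
      D.free (EvenLocal.involves_of_involves_image π hπs h)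
    have hlt' : Nat.card ψ.range + Nat.card W < Nat.card G + Nat.card M := by
      have h1 : Nat.card ψ.range ≤ Nat.card H := Nat.card_le_card_of_surjective π hπs
      have h2 : Nat.card H < Nat.card (⊤ : Subgroup G) := card_lt_of_lt hHtop.lt_top
      have h3 := W.card_le_card_group
      rw [Subgroup.card_top] at h2
      omega
    have : Finite (MulAut W) :=
      Finite.of_injective (fun e : MulAut W => (e : W → W)) DFunLike.coe_injective
    set Y' := Y.subgroupOf W with hY'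
    have htrY : ∀ h : H, tr ψ.range.subtype (π h) Y' = (tr φ (h : G) Y).subgroupOf W := by
      intro h
      ext w
      constructor
      · rintro ⟨y, hy, rfl⟩
        exact ⟨y, hy, (I.comp h y).symm⟩
      · rintro ⟨y, hy, he⟩
        exact ⟨⟨y, hYW hy⟩, hy, Subtype.ext ((I.comp h _).trans he)⟩
    have hgood' : Good ψ.range.subtype (S' : Subgroup ψ.range) Y' := by
      rw [hS'coe]
      refine I.good hYW ?_
      rw [map_subgroupOf_eq_of_le hTH]
      exact D.good.mono hTS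
    have hinv' : ∀ q ∈ M', tr ψ.range.subtype q Y' = Y' := by
      rintro _ ⟨h, hh, rfl⟩
      rw [htrY, D.inv _ (mem_subgroupOf.1 hh).2]
    have hgen' : (⨆ q : ψ.range, tr ψ.range.subtype q Y') = ⊤ := by
      refine eq_top_iff.2 fun w _ => ?_
      have hle : W ≤ (⨆ q : ψ.range, tr ψ.range.subtype q Y').map W.subtype := by
        conv_lhs => rw [hW]
        refine iSup_le fun h => ?_
        refine le_trans ?_ (Subgroup.map_mono (le_iSup (fun q => tr ψ.range.subtype q Y') (π h)))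
        rw [htrY, subgroupOf_map_subtype]
        exact le_inf le_rfl (le_iSup (fun k : H => tr φ (k : G) Y) h)
      obtain ⟨w', hw', he⟩ := hle w.2
      rwa [← Subtype.ext (he : (w' : M) = w)]
    refine ih ψ.range.subtype hlt' Subtype.coe_injective (fun w => Subtype.ext (D.exp w)) hS3'
      S' M' hu' Y' hgood' hinv' hgen' ((X.subgroupOf H).map π) ⟨fun h => hXC fun x hx => ?_, ?_, ?_⟩
    · exact (hker ⟨x, hXH hx⟩).1 (Subgroup.mem_bot.1
        (h.le ⟨⟨x, hXH hx⟩, Subgroup.mem_subgroupOf.2 hx, rfl⟩))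
    · rintro _ ⟨x, hx, rfl⟩
      rw [← map_mul, show x * x = 1 from Subtype.ext (hX.1.2.1 x hx), map_one]
    · obtain ⟨e1, -⟩ := I.counts (le_refl W) (X.subgroupOf H)
      have e2 := I.card_inf_fixSub (le_refl W) (X.subgroupOf H)
      rw [map_subgroupOf_eq_of_le hXH] at e1 e2
      rw [subgroupOf_self, top_inf_eq] at e2
      have hker' : π.ker = C.subgroupOf H := by
        ext h; exact (hker h)
      have e3 : Nat.card ((X.subgroupOf H ⊓ π.ker : Subgroup H)) =
          Nat.card (X ⊓ C : Subgroup G) := by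
        rw [hker', ← card_map_of_injective H.subtype_injective, Subgroup.map_inf _ _ _ H.subtype_injective,
          map_subgroupOf_eq_of_le hXH, map_subgroupOf_eq_of_le inf_le_left]
      rw [e3] at e1
      have h := hX.card_le_restrict W (C := X ⊓ C) inf_le_left
        fun w hw c hc => hc.2.2 w hw
      rw [← e1, ← e2] at h
      refine Nat.le_of_mul_le_mul_left (?_ : Nat.card (X ⊓ C : Subgroup G) * _ ≤
        Nat.card (X ⊓ C : Subgroup G) * _) Nat.card_pos
      calc _ ≤ _ := h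
        _ = _ := by ring

end Setting

end Cfsg.Agent.OffThm
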