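import Cfsg.Agent.OffThm.Zip
import Cfsg.Agent.OffThm.Blowup

/-!
The `F₂`-modules used in the offender theorem: the quotient by the fixed points, the representation on
it and on its dual, and the module structures read multiplicatively.
-/

set_option autoImplicit false
set_option linter.unusedSectionVars false
set_option linter.unusedVariables false
set_option linter.style.haveILetI false

namespace Cfsg.Agent.OffThm

open Subgroup
open Cfsg.Agent.CF (fixSub apply_mul)
open Cfsg.Agent.FusionAux.NoOffender

universe u

variable {G : Type u} [Group G] {M : Type u} [CommGroup M]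

theorem map_fixTop (φ : G →* MulAut M) (x : G) :
    (fixSub φ (⊤ : Subgroup G)).map (φ x).toMonoidHom = fixSub φ (⊤ : Subgroup G) := by
  refine le_antisymm ?_ fun m hm => ⟨m, hm, hm x trivial⟩
  rintro _ ⟨m, hm, rfl⟩
  show φ x m ∈ fixSub φ ⊤
  rwa [hm x trivial]

/-- The action on the quotient by the fixed points. -/
def quotHom (φ : G →* MulAut M) : G →* MulAut (M ⧸ fixSub φ (⊤ : Subgroup G)) where
  toFun x := QuotientGroup.congr _ _ (φ x) (map_fixTop φ x)
  map_one' := MulEquiv.ext fun q => QuotientGroup.induction_on q fun m => by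
    show ((φ 1 m : M) : M ⧸ fixSub φ (⊤ : Subgroup G)) = _
    rw [map_one]; rfl
  map_mul' x y := MulEquiv.ext fun q => QuotientGroup.induction_on q fun m => by
    show ((φ (x * y) m : M) : M ⧸ fixSub φ (⊤ : Subgroup G)) = ((φ x (φ y m) : M) : M ⧸ _)
    rw [apply_mul]

theorem quotHom_mk (φ : G →* MulAut M) (x : G) (m : M) :
    quotHom φ x (m : M ⧸ fixSub φ (⊤ : Subgroup G)) = ((φ x m : M) : M ⧸ _) := rfl

/-- The `F₂`-space structure on a group of exponent two. -/
@[reducible]
def zmodTwo (N : Type u) [CommGroup N] (h : ∀ n : N, n * n = 1) :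
    Module (ZMod 2) (Additive N) :=
  AddCommGroup.zmodModule fun x => by rw [two_nsmul]; exact h (Additive.toMul x)

theorem sq_quot (φ : G →* MulAut M) (hM : ∀ m : M, m * m = 1)
    (q : M ⧸ fixSub φ (⊤ : Subgroup G)) : q * q = 1 := by
  induction q using QuotientGroup.induction_on with
  | _ m => rw [← QuotientGroup.mk_mul, hM, QuotientGroup.mk_one]

/-- A representation from an action on a group of exponent two. -/
def repOf (ψ : G →* MulAut M) [Module (ZMod 2) (Additive M)] :
    Representation (ZMod 2) G (Additive M) where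
  toFun g := (MonoidHom.toAdditive (ψ g).toMonoidHom).toZModLinearMap 2
  map_one' := LinearMap.ext fun x => by
    show Additive.ofMul (ψ 1 (Additive.toMul x)) = x
    rw [map_one]; rfl
  map_mul' g h := LinearMap.ext fun x => by
    show Additive.ofMul (ψ (g * h) (Additive.toMul x)) =
      Additive.ofMul (ψ g (ψ h (Additive.toMul x)))
    rw [apply_mul]

theorem repOf_apply (ψ : G →* MulAut M) [Module (ZMod 2) (Additive M)] (g : G) (x : Additive M) :
    repOf ψ g x = Additive.ofMul (ψ g (Additive.toMul x)) := rfl

/-- The dual representation. -/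
def dualRep {V : Type u} [AddCommGroup V] [Module (ZMod 2) V] (ρ : Representation (ZMod 2) G V) :
    Representation (ZMod 2) G (Module.Dual (ZMod 2) V) where
  toFun g :=
    { toFun := fun f => f.comp (ρ g⁻¹)
      map_add' := fun f f' => LinearMap.add_comp _ _ _
      map_smul' := fun c f => LinearMap.smul_comp _ _ _ }
  map_one' := LinearMap.ext fun f => LinearMap.ext fun v => by simp
  map_mul' g h := LinearMap.ext fun f => LinearMap.ext fun v => by simp

theorem dualRep_apply {V : Type u} [AddCommGroup V] [Module (ZMod 2) V]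
    (ρ : Representation (ZMod 2) G V) (g : G) (f : Module.Dual (ZMod 2) V) (v : V) :
    dualRep ρ g f v = f (ρ g⁻¹ v) := rfl

/-- The action on a module over the group algebra, read multiplicatively. -/
noncomputable def modHom (N : Type u) [AddCommGroup N] [Module (MonoidAlgebra (ZMod 2) G) N] :
    G →* MulAut (Multiplicative N) where
  toFun g := AddEquiv.toMultiplicative
    { toFun := fun n => MonoidAlgebra.of (ZMod 2) G g • n
      invFun := fun n => MonoidAlgebra.of (ZMod 2) G g⁻¹ • n
      left_inv := fun n => by
        show MonoidAlgebra.of (ZMod 2) G g⁻¹ • MonoidAlgebra.of (ZMod 2) G g • n = n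
        rw [← mul_smul, ← map_mul, inv_mul_cancel, map_one, one_smul]
      right_inv := fun n => by
        show MonoidAlgebra.of (ZMod 2) G g • MonoidAlgebra.of (ZMod 2) G g⁻¹ • n = n
        rw [← mul_smul, ← map_mul, mul_inv_cancel, map_one, one_smul]
      map_add' := fun a b => smul_add _ _ _ }
  map_one' := MulEquiv.ext fun n => by
    show Multiplicative.ofAdd (MonoidAlgebra.of (ZMod 2) G 1 • Multiplicative.toAdd n) = n
    rw [map_one, one_smul]; rfl
  map_mul' g h := MulEquiv.ext fun n => by
    show Multiplicative.ofAdd (MonoidAlgebra.of (ZMod 2) G (g * h) • Multiplicative.toAdd n) =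
      Multiplicative.ofAdd (MonoidAlgebra.of (ZMod 2) G g • (MonoidAlgebra.of (ZMod 2) G h •
        Multiplicative.toAdd n))
    rw [map_mul, mul_smul]

theorem modHom_apply (N : Type u) [AddCommGroup N] [Module (MonoidAlgebra (ZMod 2) G) N] (g : G)
    (n : Multiplicative N) :
    modHom N g n = Multiplicative.ofAdd (MonoidAlgebra.of (ZMod 2) G g • Multiplicative.toAdd n) :=
  rfl

theorem modHom_sq (N : Type u) [AddCommGroup N] [Module (MonoidAlgebra (ZMod 2) G) N]
    (n : Multiplicative N) : n * n = 1 := by
  have h : (1 + 1 : MonoidAlgebra (ZMod 2) G) = 0 := by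
    rw [one_add_one_eq_two, ← map_ofNat (algebraMap (ZMod 2) (MonoidAlgebra (ZMod 2) G)),
      show (2 : ZMod 2) = 0 from rfl, map_zero]
  show Multiplicative.ofAdd (Multiplicative.toAdd n + Multiplicative.toAdd n) = 1
  rw [← one_smul (MonoidAlgebra (ZMod 2) G) (Multiplicative.toAdd n), ← add_smul, h, zero_smul]
  rfl

/-- An invariant subgroup is a submodule. -/
theorem invariant_eq_bot_or_top {N : Type u} [AddCommGroup N]
    [Module (MonoidAlgebra (ZMod 2) G) N] [IsSimpleModule (MonoidAlgebra (ZMod 2) G) N]
    (P : Subgroup (Multiplicative N)) (hP : ∀ g : G, ∀ n ∈ P, modHom N g n ∈ P) : P = ⊥ ∨ P = ⊤ := by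
  let P' : Submodule (MonoidAlgebra (ZMod 2) G) N :=
    { carrier := {n | Multiplicative.ofAdd n ∈ P}
      zero_mem' := P.one_mem
      add_mem' := fun {a b} ha hb => P.mul_mem ha hb
      smul_mem' := fun z n hn => by
        show Multiplicative.ofAdd (z • n) ∈ P
        induction z using MonoidAlgebra.induction_on with
        | of g => exact hP g _ hn
        | add a b ha hb => rw [add_smul]; exact P.mul_mem ha hb
        | smul r a ha =>
          obtain rfl | rfl : r = 0 ∨ r = 1 := by revert r; decide
          · rw [zero_smul, zero_smul]; exact P.one_mem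
          · rwa [one_smul] }
  rcases eq_bot_or_eq_top P' with h | h
  · exact Or.inl (eq_bot_iff.2 fun n hn => Subgroup.mem_bot.2
      ((Submodule.mem_bot _).1 (h.le (hn : Multiplicative.toAdd n ∈ P')) : Multiplicative.toAdd n = 0))
  · exact Or.inr (eq_top_iff.2 fun n _ => h.ge (Submodule.mem_top (x := Multiplicative.toAdd n)))

/-- The sum of the first `m` powers of `y` in the group algebra. -/
noncomputable def powSum (y : G) (m : ℕ) : MonoidAlgebra (ZMod 2) G :=
  ∑ i ∈ Finset.range m, MonoidAlgebra.of (ZMod 2) G (y ^ i)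

theorem powSum_smul_of_fix {N : Type u} [AddCommGroup N] [Module (MonoidAlgebra (ZMod 2) G) N]
    {y : G} {m : ℕ} (hm : Odd m) {n : N} (hn : MonoidAlgebra.of (ZMod 2) G y • n = n) :
    powSum y m • n = n := by
  have hi : ∀ i : ℕ, MonoidAlgebra.of (ZMod 2) G (y ^ i) • n = n := by
    intro i
    induction i with
    | zero => rw [pow_zero, map_one, one_smul]
    | succ i ih => rw [pow_succ, map_mul, mul_smul, hn, ih]
  rw [powSum, Finset.sum_smul, Finset.sum_congr rfl fun i _ => hi i, Finset.sum_const,
    Finset.card_range]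
  obtain ⟨j, rfl⟩ := hm
  have h2 : n + n = 0 := congrArg Multiplicative.toAdd (modHom_sq (G := G) N (Multiplicative.ofAdd n))
  rw [succ_nsmul, mul_comm, mul_nsmul, two_nsmul, ← nsmul_add, h2, nsmul_zero, zero_add]

end Cfsg.Agent.OffThm
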