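import Cfsg.Agent.OffThm.Push

/-!
Consequences of the geometry of an offender `A`: `⟨A, A^g⟩` is the whole group for every `g` outside
the unique maximal subgroup `Mx` containing `A`.
-/

set_option autoImplicit false
set_option linter.unusedSectionVars false
set_option linter.unusedVariables false
set_option linter.style.haveILetI false

namespace Cfsg.Agent.OffThm

open Subgroup
open Cfsg.Agent.Fusion (cj mem_cj conj_mem_cj cj_cj cj_inv_cj card_cj)
open Cfsg.Agent.CF (fixSub apply_mul)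
open Cfsg.Agent.FusionAux.NoOffender

universe u

variable {G : Type u} [Group G]

/-- The geometry of `A` inside `Mx`; `Q` is the core. -/
structure Geom (A Mx Q : Subgroup G) : Prop where
  le : A ≤ Mx
  sq : ∀ a ∈ A, a * a = 1
  max : ∀ K : Subgroup G, K ≠ ⊤ → A ≤ K → K ≤ Mx
  gen : ∀ g, g ∉ Mx → A ⊔ cj g A = ⊤
  core : ∀ a ∈ A, (∀ g : G, g * a * g⁻¹ ∈ Mx) → a ∈ Q

variable [Finite G] {N : Type u} [CommGroup N] {ψ : G →* MulAut N} {A Mx Q : Subgroup G}

/-- Quadratic action makes the sum of the two fixed spaces invariant. -/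
theorem apply_mem_span (D : Geom A Mx Q) (hquad : ∀ a ∈ A, ∀ v, delta ψ a v ∈ fixSub ψ A) {g : G}
    (hg : g ∉ Mx) (x : G) {v : N} (hv : v ∈ fixSub ψ A ⊔ tr ψ g (fixSub ψ A)) :
    ψ x v ∈ fixSub ψ A ⊔ tr ψ g (fixSub ψ A) := by
  set P := fixSub ψ A ⊔ tr ψ g (fixSub ψ A) with hP
  let D' : Submonoid G :=
    { carrier := {x | ∀ v ∈ P, ψ x v ∈ P}
      one_mem' := fun v hv => by rw [map_one]; exact hv
      mul_mem' := fun hx hy v hv => by rw [apply_mul]; exact hx _ (hy v hv) }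
  suffices (A ⊔ cj g A).toSubmonoid ≤ D' from this ((D.gen g hg).ge (mem_top x)) v hv
  rw [Subgroup.sup_eq_closure, Subgroup.closure_toSubmonoid_of_finite, Submonoid.closure_le]
  rintro x (hx | hx) v hv
  · rw [apply_eq_delta_mul ψ x v]
    exact P.mul_mem (Subgroup.mem_sup_left (hquad x hx v)) hv
  · rw [apply_eq_delta_mul ψ x v]
    refine P.mul_mem (Subgroup.mem_sup_right ?_) hv
    obtain ⟨a, ha, rfl⟩ := hx
    refine ⟨delta ψ a (ψ g⁻¹ v), hquad a ha _, ?_⟩
    show ψ g (delta ψ a (ψ g⁻¹ v)) = delta ψ (g * a * g⁻¹) v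
    rw [delta_apply, delta_apply, map_mul (ψ g), map_inv (ψ g), apply_inv_apply, apply_mul, apply_mul]

theorem fixed_of_mem_inter (D : Geom A Mx Q) {g : G} (hg : g ∉ Mx) {v : N}
    (h1 : v ∈ fixSub ψ A) (h2 : v ∈ tr ψ g (fixSub ψ A)) : v ∈ fixSub ψ (⊤ : Subgroup G) := by
  have h : A ⊔ cj g A ≤ stab ψ v := sup_le (fun a ha => h1 a ha) fun x hx => by
    rw [tr, ← fixSub_cj] at h2
    exact h2 x hx
  rw [D.gen g hg] at h
  exact fun x hx => h hx

/-- With no fixed points, an element of `A` outside the core fixes only the fixed points of `A`. -/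
theorem mem_core_of_fix (D : Geom A Mx Q) (hfix : fixSub ψ (⊤ : Subgroup G) = ⊥)
    (hspan : ∀ g, g ∉ Mx → fixSub ψ A ⊔ tr ψ g (fixSub ψ A) = ⊤)
    {v : N} (hv : v ∉ fixSub ψ A) {a : G} (ha : a ∈ A) (hav : ψ a v = v) : a ∈ Q := by
  refine D.core a ha fun k => ?_
  by_cases hk : k ∈ Mx
  · exact Mx.mul_mem (Mx.mul_mem hk (D.le ha)) (Mx.inv_mem hk)
  have hk' : k⁻¹ ∉ Mx := fun h => hk (inv_mem_iff.1 h)
  obtain ⟨x, hx, _, ⟨z, hz, rfl⟩, hxy⟩ := Subgroup.mem_sup.1 ((hspan k⁻¹ hk').ge (mem_top v))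
  have hz1 : z ≠ 1 := fun h => hv (by rw [← hxy, h, map_one, mul_one]; exact hx)
  have hfz : ψ a (ψ k⁻¹ z) = ψ k⁻¹ z := by
    have h : ψ a (x * ψ k⁻¹ z) = x * ψ k⁻¹ z := by
      rw [show x * ψ k⁻¹ z = v from hxy]; exact hav
    rw [map_mul, hx a ha] at h
    exact mul_left_cancel h
  refine D.max (stab ψ z) (fun h => hz1 ?_) (fun b hb => hz b hb) ?_
  · exact Subgroup.mem_bot.1 (hfix.le fun y _ => (h.ge (Subgroup.mem_top y) : y ∈ stab ψ z))
  · show ψ (k * a * k⁻¹) z = z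
    rw [apply_mul, apply_mul, hfz, apply_inv_apply]

/-- A product of two commuting-free involutions has no fixed point, nor has its odd part. -/
theorem no_fixed_pow (x : G) (hx : ∀ v : N, ψ x v = v → v = 1) (hN : ∀ v : N, v * v = 1) :
    ∀ s : ℕ, ∀ v : N, ψ (x ^ 2 ^ s) v = v → v = 1 := by
  intro s
  induction s with
  | zero => intro v hv; rw [pow_zero, pow_one] at hv; exact hx v hv
  | succ s ih =>
    intro v hv
    rw [pow_succ, mul_two, pow_add, apply_mul] at hv
    have h1 : v * ψ (x ^ 2 ^ s) v = 1 := ih _ (by rw [map_mul, hv, mul_comm])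
    refine ih v ?_
    rw [eq_inv_of_mul_eq_one_right h1, inv_eq_of_mul_eq_one_right (hN v)]

variable [Finite N]

/-- The size of `A` against a nontrivial irreducible quadratic module: `S₃` otherwise. -/
theorem involves_of_card_le [Fact (Nat.Prime 2)] (D : Geom A Mx Q) (hN : ∀ v : N, v * v = 1)
    (hfix : fixSub ψ (⊤ : Subgroup G) = ⊥)
    (hquad : ∀ a ∈ A, ∀ v, delta ψ a v ∈ fixSub ψ A)
    (hspan : ∀ g, g ∉ Mx → fixSub ψ A ⊔ tr ψ g (fixSub ψ A) = ⊤)
    {g : G} (hg : g ∉ Mx) {n₀ : N} (hn₀ : n₀ ≠ 1)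
    (hle : Nat.card (fixSub ψ A) * Nat.card (A ⊓ Q : Subgroup G) ≤ Nat.card A) :
    Cfsg.Involves (Equiv.Perm (Fin 3)) G := by
  set U := fixSub ψ A
  obtain ⟨u, huU, hu1⟩ := exists_fixed_two ψ (isPGroup_of_sq D.sq) hN hn₀
  have hdisj : ∀ k, k ∉ Mx → ∀ z, z ∈ U → ψ k z ∈ U → z = 1 := fun k hk z hz hkz =>
    (ψ k).injective ((Subgroup.mem_bot.1 (hfix.le (fixed_of_mem_inter D hk hkz ⟨z, hz, rfl⟩))).trans
      (map_one _).symm)
  have honto : ∀ v, v ∉ U → ∀ z ∈ U, ∃ a ∈ A, ψ a v = z * v := by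
    intro v hv z hz
    let f : A →* U :=
      { toFun := fun a => ⟨delta ψ a v, hquad a a.2 v⟩
        map_one' := Subtype.ext (by
          show delta ψ ((1 : A) : G) v = 1
          rw [delta_apply, OneMemClass.coe_one, map_one]
          exact mul_inv_cancel v)
        map_mul' := fun a b => Subtype.ext (by
          show delta ψ ((a : G) * b) v = delta ψ (a : G) v * delta ψ (b : G) v
          have h := hquad b b.2 v a a.2
          rw [delta_apply, delta_apply, delta_apply, apply_mul, mul_comm]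
          rw [delta_apply, map_mul, map_inv] at h
          calc v⁻¹ * ψ (a : G) (ψ (b : G) v)
              = v⁻¹ * (ψ (a : G) (ψ (b : G) v) * (ψ (a : G) v)⁻¹ * ψ (a : G) v) := by
                rw [inv_mul_cancel_right]
            _ = _ := by rw [h]; simp only [mul_comm, mul_left_comm]) }
    have hker : f.ker ≤ (A ⊓ Q).subgroupOf A := fun a ha => by
      refine mem_subgroupOf.2 ⟨a.2, mem_core_of_fix D hfix hspan hv a.2 ?_⟩
      exact mul_inv_eq_one.1 (congrArg Subtype.val (MonoidHom.mem_ker.1 ha))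
    have h1 : Nat.card f.ker ≤ Nat.card (A ⊓ Q : Subgroup G) :=
      (Subgroup.card_le_of_le hker).trans_eq
        (Nat.card_congr (subgroupOfEquivOfLe inf_le_left).toEquiv)
    have h2 : Nat.card f.range * Nat.card f.ker = Nat.card A := by
      rw [← Subgroup.index_ker, mul_comm, Subgroup.card_mul_index]
    have htop : f.range = ⊤ := by
      refine Subgroup.eq_top_of_card_eq _ (le_antisymm (Subgroup.card_le_card_group _) ?_)
      refine Nat.le_of_mul_le_mul_right (c := Nat.card (A ⊓ Q : Subgroup G)) ?_ Nat.card_pos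
      exact hle.trans (h2.ge.trans (Nat.mul_le_mul_left _ h1))
    obtain ⟨a, ha⟩ := htop.ge (mem_top (⟨z, hz⟩ : U))
    exact ⟨a, a.2, by rw [apply_eq_delta_mul ψ (a : G) v, show delta ψ (a : G) v = z from
      congrArg Subtype.val ha]⟩
  set w := ψ g u with hw
  have hw1 : w ≠ 1 := fun h => hu1 ((ψ g).injective (h.trans (map_one _).symm))
  have hwU : w ∉ U := fun h => hu1 (hdisj g hg u huU h)
  obtain ⟨a, ha, haw⟩ := honto w hwU u huU
  have hg' : g⁻¹ ∉ Mx := fun h => hg (inv_mem_iff.1 h)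
  obtain ⟨a', ha', ha'v⟩ := honto (ψ g⁻¹ u) (fun h => hu1 (hdisj g⁻¹ hg' u huU h)) u huU
  have hbu : ψ (g * a' * g⁻¹) u = u * w := by
    rw [apply_mul, apply_mul, ha'v, map_mul, apply_inv_apply, mul_comm]
  have hbw : ψ (g * a' * g⁻¹) w = w := by
    rw [hw, apply_mul, apply_mul, inv_apply_apply, huU a' ha']
  have hau : ψ a u = u := huU a ha
  refine involves_three ψ hu1 hw1 (fun h => hwU (h ▸ huU)) hau haw ?_ hbw hbu ?_
  · rw [map_mul, hau, haw, ← mul_assoc, hN, one_mul]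
  · rw [map_mul, hbw, hbu, mul_assoc, hN, mul_one]

end Cfsg.Agent.OffThm
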